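/-
Lower bound for the degree of a faithful complex representation of the Suzuki group.
-/
import Cfsg.Agent.Lib.Sz.Simple
import Cfsg.Agent.Lib.Sz.LieIso

set_option autoImplicit false

namespace CfsgLib.Sz

open Matrix Cfsg Module
open scoped Pointwise

/-- Independence of simultaneous eigenvectors for distinct characters. -/
lemma eig_indep {A V ι : Type*} [Monoid A] [AddCommGroup V] [Module ℂ V] [Fintype ι]
    (act : A → V →ₗ[ℂ] V) (χ : ι → A →* ℂ) (hχ : Function.Injective χ) (x : ι → V)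
    (hx : ∀ i a, act a (x i) = χ i a • x i) (hs : ∑ i, x i = 0) (i : ι) : x i = 0 := by
  rw [← Module.forall_dual_apply_eq_zero_iff ℂ]
  intro f
  have hli := (linearIndependent_monoidHom A ℂ).comp χ hχ
  refine Fintype.linearIndependent_iff.1 hli (fun i => f (x i)) ?_ i
  ext a
  have h := congrArg (fun v => f (act a v)) hs
  simp only [map_sum, hx, map_smul, map_zero, smul_eq_mul] at h
  simp only [Finset.sum_apply, Pi.smul_apply, Function.comp, smul_eq_mul, Pi.zero_apply]
  rw [← h]
  exact Finset.sum_congr rfl (fun i _ => mul_comm _ _)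

/-- A common eigenvector of commuting involutions. -/
lemma exists_common {V ι : Type*} [AddCommGroup V] [Module ℂ V] (f : ι → V →ₗ[ℂ] V)
    (hsq : ∀ i v, f i (f i v) = v) (hcomm : ∀ i j v, f i (f j v) = f j (f i v)) (s : Finset ι) :
    ∀ (E : Submodule ℂ V), E ≠ ⊥ → (∀ i, ∀ v ∈ E, f i v ∈ E) →
      ∃ v ∈ E, v ≠ 0 ∧ ∀ i ∈ s, f i v = v ∨ f i v = -v := by
  classical
  induction s using Finset.induction_on with
  | empty =>
    intro E hE _
    obtain ⟨v, hv, hv0⟩ := Submodule.exists_mem_ne_zero_of_ne_bot hE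
    exact ⟨v, hv, hv0, by simp⟩
  | insert b s hb ih =>
    intro E hE hinv
    obtain ⟨v, hv, hv0⟩ := Submodule.exists_mem_ne_zero_of_ne_bot hE
    by_cases h : f b v = v
    · -- the fixed part
      let E₁ : Submodule ℂ V := E ⊓ LinearMap.ker (f b - LinearMap.id)
      have hv1 : v ∈ E₁ := ⟨hv, by simp [h]⟩
      have hE1 : E₁ ≠ ⊥ := fun h0 => hv0 (by rw [h0] at hv1; simpa using hv1)
      obtain ⟨w, hw, hw0, hws⟩ := ih E₁ hE1 (by
        rintro i u ⟨hu, hu'⟩
        refine ⟨hinv i u hu, ?_⟩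
        have hu'' : f b u = u := by simpa [sub_eq_zero] using hu'
        simp [sub_eq_zero, hcomm b i u, hu''])
      refine ⟨w, hw.1, hw0, ?_⟩
      intro i hi
      rcases Finset.mem_insert.1 hi with rfl | hi
      · left
        simpa [sub_eq_zero] using hw.2
      · exact hws i hi
    · let E₁ : Submodule ℂ V := E ⊓ LinearMap.ker (f b + LinearMap.id)
      have hw1 : v - f b v ∈ E₁ := by
        refine ⟨E.sub_mem hv (hinv b v hv), ?_⟩
        simp [hsq]
      have hne : v - f b v ≠ 0 := fun h0 => h (sub_eq_zero.1 h0).symm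
      have hE1 : E₁ ≠ ⊥ := fun h0 => hne (by rw [h0] at hw1; simpa using hw1)
      obtain ⟨w, hw, hw0, hws⟩ := ih E₁ hE1 (by
        rintro i u ⟨hu, hu'⟩
        refine ⟨hinv i u hu, ?_⟩
        have hu'' : f b u = -u := by
          have : f b u + u = 0 := by simpa using hu'
          exact eq_neg_of_add_eq_zero_left this
        simp [hcomm b i u, hu''])
      refine ⟨w, hw.1, hw0, ?_⟩
      intro i hi
      rcases Finset.mem_insert.1 hi with rfl | hi
      · right
        have : f i w + w = 0 := by simpa using hw.2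
        exact eq_neg_of_add_eq_zero_left this
      · exact hws i hi

section

variable {F : Type*} [Field F] [Fintype F] {m : ℕ}

local notation "θm" => (2 ^ (m + 1) : ℕ)

variable (hF : Fintype.card F = 2 ^ (2 * m + 1)) (hm : 1 ≤ m)

/-- The unipotent elements in the subtype. -/
def sS (a b : F) : Sz F m := ⟨S θm a b, S_mem hF a b⟩

/-- The diagonal elements in the subtype. -/
def sM (α : Fˣ) : Sz F m := ⟨M (2 ^ m) α, M_mem hF α⟩

include hm in
lemma sS_mul (a b c d : F) : sS hF a b * sS hF c d = sS hF (a + c) (b + d + a ^ θm * c) :=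
  Subtype.ext (S_mul hF hm a b c d)

include hm in
lemma sS_zero : sS hF (0 : F) 0 = 1 := Subtype.ext (S_zero hF hm)

include hm in
lemma sS_comm (a b c d : F) : sS hF a b * sS hF c d * (sS hF a b)⁻¹ * (sS hF c d)⁻¹ = sS hF 0 (a ^ θm * c + c ^ θm * a) :=
  Subtype.ext (S_comm hF hm a b c d)

include hm in
lemma sS_inv (a b : F) : (sS hF a b)⁻¹ = sS hF a (b + a ^ (θm + 1)) :=
  Subtype.ext (S_inv hF hm a b)

include hm in
lemma sM_conj (α : Fˣ) (a b : F) : sM hF α * sS hF a b * (sM hF α)⁻¹ = sS hF (α * a) ((α : F) ^ (θm + 1) * b) :=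
  Subtype.ext (M_conj hF hm α a b)

include hm in
lemma sS_one_ne : sS hF (0 : F) 1 ≠ 1 := by
  intro h
  exact S_ne_one hF hm (congrArg Subtype.val h)

include hF in
/-- The radical of the commutator form has at most two elements. -/
lemma rad_unique (χ₀ : F → ℂ) (hadd : ∀ a b, χ₀ (a + b) = χ₀ a * χ₀ b)
    (hpm : ∀ a, χ₀ a = 1 ∨ χ₀ a = -1) (h1 : χ₀ 1 = -1) {e e' : F} (he : e ≠ 0) (he' : e' ≠ 0)
    (hr : ∀ c, χ₀ (c ^ θm * e + e ^ θm * c) = 1) (hr' : ∀ c, χ₀ (c ^ θm * e' + e' ^ θm * c) = 1) : e = e' := by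
  have C := ctx_of_card (F := F) (m := m) hF
  have hsq : ∀ a, χ₀ a * χ₀ a = 1 := by
    intro a
    rcases hpm a with h | h <;> simp [h]
  have hsurj : Function.Surjective (fun y : F => y ^ θm) := by
    apply Finite.injective_iff_surjective.1
    intro y y' h
    have h' : (y ^ θm) ^ θm = (y' ^ θm) ^ θm := by
      simp only at h
      rw [h]
    rw [C.sq, C.sq] at h'
    have h2 : (y + y') ^ 2 = 0 := by
      have := C.two
      linear_combination h' + (y * y' + y' ^ 2) * this
    have h3 : y + y' = 0 := by simpa using h2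
    have h4 := add_self C y'
    linear_combination h3 - h4
  set κ : F := e ^ (θm + 1) with hκ
  set κ' : F := e' ^ (θm + 1) with hκ'
  have hκ0 : κ ≠ 0 := pow_ne_zero _ he
  have hκ0' : κ' ≠ 0 := pow_ne_zero _ he'
  have key : ∀ (e : F) (y : F), (e * y) ^ θm * e + e ^ θm * (e * y) = e ^ (θm + 1) * (y ^ θm + y) := by
    intro e y
    rw [mul_pow]
    ring
  have h1' : ∀ y, χ₀ (κ * (y ^ θm + y)) = 1 := by
    intro y
    rw [hκ, ← key e y]
    exact hr _
  have h2' : ∀ y, χ₀ (κ' * (y ^ θm + y)) = 1 := by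
    intro y
    rw [hκ', ← key e' y]
    exact hr' _
  -- `ψ x = χ₀ (κ x)`; invariance under `θ`
  have inv : ∀ (κ : F), (∀ y, χ₀ (κ * (y ^ θm + y)) = 1) → ∀ y, χ₀ (κ * y ^ θm) = χ₀ (κ * y) := by
    intro κ hk y
    have := hk y
    rw [mul_add, hadd] at this
    calc χ₀ (κ * y ^ θm) = χ₀ (κ * y ^ θm) * (χ₀ (κ * y) * χ₀ (κ * y)) := by rw [hsq, mul_one]
      _ = (χ₀ (κ * y ^ θm) * χ₀ (κ * y)) * χ₀ (κ * y) := by ring
      _ = χ₀ (κ * y) := by rw [this, one_mul]
  have i1 := inv κ h1'
  have i2 := inv κ' h2'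
  set ν : F := κ' / κ with hν
  have hκν : κ' = κ * ν := by rw [hν]; field_simp
  have hν0 : ν ≠ 0 := by
    intro h
    rw [h, mul_zero] at hκν
    exact hκ0' hκν
  -- `ν` is fixed
  have hfix : ν ^ θm = ν := by
    by_contra hne
    have hne' : ν ^ θm + ν ≠ 0 := by
      intro h
      apply hne
      have h4 := add_self C ν
      linear_combination h - h4
    obtain ⟨y, hy⟩ := hsurj ((κ * (ν ^ θm + ν))⁻¹)
    simp only at hy
    have e1 : χ₀ (κ * (ν * y ^ θm)) = χ₀ (κ * (ν ^ θm * y ^ θm)) := by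
      have a1 := i2 y
      have a2 := i1 (ν * y)
      calc χ₀ (κ * (ν * y ^ θm)) = χ₀ (κ' * y ^ θm) := by rw [hκν, mul_assoc]
        _ = χ₀ (κ' * y) := a1
        _ = χ₀ (κ * (ν * y)) := by rw [hκν, mul_assoc]
        _ = χ₀ (κ * (ν * y) ^ θm) := a2.symm
        _ = χ₀ (κ * (ν ^ θm * y ^ θm)) := by rw [mul_pow]
    have e2 : χ₀ (κ * (ν * y ^ θm) + κ * (ν ^ θm * y ^ θm)) = 1 := by
      rw [hadd, e1, hsq]
    have e3 : κ * (ν * y ^ θm) + κ * (ν ^ θm * y ^ θm) = 1 := by
      rw [hy]
      field_simp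
      ring
    rw [e3, h1] at e2
    norm_num at e2
  have hν1 : ν = 1 := by
    have h := C.sq ν
    rw [hfix, hfix] at h
    have h2 : ν * (ν - 1) = 0 := by linear_combination -h
    rcases mul_eq_zero.1 h2 with h3 | h3
    · exact absurd h3 hν0
    · exact sub_eq_zero.1 h3
  have hκe : κ' = κ := by rw [hκν, hν1, mul_one]
  -- finally `e = e'`
  have h5 : (e / e') ^ (θm + 1) = 1 := by
    rw [div_pow, ← hκ, ← hκ', hκe]
    exact div_self hκ0
  have h6 := pow_theta_succ_eq_one hF (div_ne_zero he he') h5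
  field_simp at h6
  exact h6

variable {V : Type*} [AddCommGroup V] [Module ℂ V] [FiniteDimensional ℂ V] (ρ : Representation ℂ (Sz F m) V)

omit [FiniteDimensional ℂ V] in
lemma rho_mul (g h : Sz F m) (v : V) : ρ (g * h) v = ρ g (ρ h v) := by
  rw [map_mul]; rfl

omit [FiniteDimensional ℂ V] in
lemma rho_eq_zero {g : Sz F m} {v : V} (h : ρ g v = 0) : v = 0 := by
  have h2 := rho_mul ρ g⁻¹ g v
  rw [h, map_zero, inv_mul_cancel, map_one] at h2
  simpa using h2

include hF hm in
/-- The lower bound for the degree of a faithful representation. -/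
theorem degree_bound (hinj : ∀ g, ρ g = 1 → g = 1) : 2 ^ m * (2 ^ (2 * m + 1) - 1) ≤ finrank ℂ V := by
  classical
  have C := ctx_of_card (F := F) (m := m) hF
  have mul0 : ∀ b c : F, sS hF 0 b * sS hF 0 c = sS hF 0 (b + c) := by
    intro b c
    rw [sS_mul hF hm]
    simp
  have comm0 : ∀ a c b : F, sS hF 0 b * sS hF a c = sS hF a c * sS hF 0 b := by
    intro a c b
    rw [sS_mul hF hm, sS_mul hF hm]
    simp only [zero_add, add_zero, mul_zero]
    rw [zero_pow (by positivity), zero_mul, add_zero, add_comm]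
  let z : F → V →ₗ[ℂ] V := fun b => ρ (sS hF 0 b)
  have zsq : ∀ b v, z b (z b v) = v := by
    intro b v
    change ρ _ (ρ _ v) = v
    rw [← rho_mul, mul0, add_self C, sS_zero hF hm, map_one]
    rfl
  have zcomm : ∀ b c v, z b (z c v) = z c (z b v) := by
    intro b c v
    change ρ _ (ρ _ v) = ρ _ (ρ _ v)
    rw [← rho_mul, ← rho_mul, comm0]
  -- a common eigenvector on which `z 1` is `-1`
  have hne1 : z 1 ≠ 1 := fun h => sS_one_ne hF hm (hinj _ h)
  obtain ⟨v₁, hv₁⟩ : ∃ v, z 1 v ≠ v := by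
    by_contra h
    push Not at h
    exact hne1 (LinearMap.ext h)
  let E₀ : Submodule ℂ V := LinearMap.ker (z 1 + LinearMap.id)
  have hE₀ : E₀ ≠ ⊥ := by
    intro h0
    have hw : v₁ - z 1 v₁ ∈ E₀ := by
      simp [E₀, zsq]
    rw [h0] at hw
    exact hv₁ (sub_eq_zero.1 (by simpa using hw)).symm
  obtain ⟨v₀, hv₀E, hv₀, hv₀s⟩ := exists_common z zsq zcomm Finset.univ E₀ hE₀ (by
    intro i v hv
    have hv' : z 1 v + v = 0 := by simpa [E₀] using hv
    have : z 1 (z i v) + z i v = 0 := by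
      rw [zcomm, ← map_add, hv', map_zero]
    simpa [E₀] using this)
  have hex : ∀ b, ∃ c : ℂ, (c = 1 ∨ c = -1) ∧ z b v₀ = c • v₀ := by
    intro b
    rcases hv₀s b (Finset.mem_univ b) with h | h
    · exact ⟨1, Or.inl rfl, by simpa using h⟩
    · exact ⟨-1, Or.inr rfl, by simpa using h⟩
  choose χ₀ hpm hχ₀ using hex
  have hadd : ∀ a b, χ₀ (a + b) = χ₀ a * χ₀ b := by
    intro a b
    apply smul_left_injective ℂ hv₀
    simp only
    rw [← hχ₀, mul_smul, ← hχ₀ b, ← map_smul, ← hχ₀ a]
    change ρ _ v₀ = ρ _ (ρ _ v₀)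
    rw [← rho_mul, mul0, add_comm]
  have h1 : χ₀ 1 = -1 := by
    have h : z 1 v₀ + v₀ = 0 := by simpa [E₀] using hv₀E
    rw [hχ₀] at h
    have h2 : (χ₀ 1 + 1) • v₀ = 0 := by rw [add_smul, one_smul]; exact h
    rcases smul_eq_zero.1 h2 with h3 | h3
    · exact eq_neg_of_add_eq_zero_left h3
    · exact absurd h3 hv₀
  have h00 : χ₀ 0 = 1 := by
    apply smul_left_injective ℂ hv₀
    simp only
    rw [← hχ₀, one_smul]
    change ρ _ v₀ = v₀
    rw [sS_zero hF hm, map_one]
    rfl
  have hsq : ∀ a, χ₀ a * χ₀ a = 1 := by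
    intro a
    rcases hpm a with h | h <;> simp [h]
  -- the eigenspace
  let W : Submodule ℂ V :=
    { carrier := {v | ∀ b, z b v = χ₀ b • v}
      add_mem' := by
        intro u v hu hv b
        rw [map_add, hu b, hv b, smul_add]
      zero_mem' := by
        intro b
        simp
      smul_mem' := by
        intro c v hv b
        rw [map_smul, hv b, smul_comm] }
  have hv₀W : v₀ ∈ W := fun b => hχ₀ b
  have hWg : ∀ a c, ∀ v ∈ W, ρ (sS hF a c) v ∈ W := by
    intro a c v hv b
    change ρ _ (ρ _ v) = _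
    rw [← rho_mul, comm0, rho_mul]
    have : ρ (sS hF 0 b) v = χ₀ b • v := hv b
    rw [this, map_smul]
  let Y : F → F → Module.End ℂ W := fun a c => (ρ (sS hF a c)).restrict (hWg a c)
  have Yval : ∀ a c (v : W), ((Y a c v : W) : V) = ρ (sS hF a c) v := fun _ _ _ => rfl
  -- the adjoint action
  have hrel : ∀ c a : F, Y c 0 * Y a 0 * Y c (0 + c ^ (θm + 1)) = χ₀ (c ^ θm * a + a ^ θm * c) • Y a 0 := by
    intro c a
    have key : sS hF c 0 * sS hF a 0 * sS hF c (0 + c ^ (θm + 1)) = sS hF 0 (c ^ θm * a + a ^ θm * c) * sS hF a 0 := by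
      rw [← sS_inv hF hm, ← sS_comm hF hm c 0 a 0]
      group
    ext v
    change ρ _ (ρ _ (ρ _ (v : V))) = χ₀ _ • ρ _ (v : V)
    rw [← rho_mul, ← rho_mul, key, rho_mul]
    exact hWg a 0 v v.2 _
  let act : Multiplicative F → Module.End ℂ W →ₗ[ℂ] Module.End ℂ W := fun c =>
    (LinearMap.mulLeft ℂ (Y c.toAdd 0)).comp (LinearMap.mulRight ℂ (Y c.toAdd (0 + c.toAdd ^ (θm + 1))))
  have hact : ∀ c a, act c (Y a 0) = χ₀ (c.toAdd ^ θm * a + a ^ θm * c.toAdd) • Y a 0 := by
    intro c a
    rw [← hrel c.toAdd a, mul_assoc]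
    rfl
  let lam : F → (Multiplicative F →* ℂ) := fun a =>
    { toFun := fun c => χ₀ (c.toAdd ^ θm * a + a ^ θm * c.toAdd)
      map_one' := by
        simp only [toAdd_one]
        rw [zero_pow (by positivity), zero_mul, mul_zero, add_zero, h00]
      map_mul' := by
        intro c c'
        rw [toAdd_mul, ← hadd, C.add]
        congr 1
        ring }
  have hlam : ∀ a c, lam a c = χ₀ (c.toAdd ^ θm * a + a ^ θm * c.toAdd) := fun _ _ => rfl
  -- fibres of `lam`
  have hfib : ∀ L ∈ Finset.univ.image lam, (Finset.univ.filter (fun x => lam x = L)).card ≤ 2 := by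
    intro L _
    by_contra hc
    push Not at hc
    obtain ⟨a, b, c, ha, hb, hc', hab, hac, hbc⟩ := Finset.two_lt_card_iff.1 hc
    simp only [Finset.mem_filter, Finset.mem_univ, true_and] at ha hb hc'
    have two_ne : ∀ x y : F, x ≠ y → x + y ≠ 0 := by
      intro x y hxy h
      apply hxy
      have h4 := add_self C y
      linear_combination h - h4
    have hr : ∀ y : F, lam a = lam y → ∀ x, χ₀ (x ^ θm * (a + y) + (a + y) ^ θm * x) = 1 := by
      intro y hy x
      have e1 := congrArg (fun L : Multiplicative F →* ℂ => L (Multiplicative.ofAdd x)) hy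
      simp only [hlam, toAdd_ofAdd] at e1
      rw [C.add, show x ^ θm * (a + y) + (a ^ θm + y ^ θm) * x = (x ^ θm * a + a ^ θm * x) + (x ^ θm * y + y ^ θm * x) by ring, hadd, ← e1, hsq]
    have := rad_unique hF χ₀ hadd hpm h1 (two_ne a b hab) (two_ne a c hac) (hr b (by rw [ha, hb])) (hr c (by rw [ha, hc']))
    exact hbc (add_left_cancel this)
  have hcard1 := Finset.card_le_mul_card_image Finset.univ 2 hfib
  -- independence of the operators
  have hnz : ∀ a, Y a 0 ≠ 0 := by
    intro a h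
    have h2 := congrArg (fun X : Module.End ℂ W => ((X ⟨v₀, hv₀W⟩ : W) : V)) h
    simp only [Yval] at h2
    exact hv₀ (rho_eq_zero ρ h2)
  let I := Finset.univ.image lam
  have hpick : ∀ L : I, ∃ a, lam a = L := by
    intro L
    obtain ⟨a, -, ha⟩ := Finset.mem_image.1 L.2
    exact ⟨a, ha⟩
  choose pick hpick' using hpick
  have hli : LinearIndependent ℂ (fun L : I => Y (pick L) 0) := by
    rw [Fintype.linearIndependent_iff]
    intro g hg L
    have h := eig_indep act (fun L : I => (L : Multiplicative F →* ℂ)) Subtype.val_injective (fun L => g L • Y (pick L) 0) (by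
      intro L c
      rw [map_smul, hact, smul_comm, ← hlam, hpick']) hg L
    rcases smul_eq_zero.1 h with h | h
    · exact h
    · exact absurd h (hnz _)
  have hcard2 := hli.fintype_card_le_finrank
  rw [Module.finrank_linearMap, Fintype.card_coe] at hcard2
  set n := finrank ℂ W with hn
  have hq : (Finset.univ : Finset F).card = 2 ^ (2 * m + 1) := by
    rw [Finset.card_univ, hF]
  rw [hq] at hcard1
  have hmn : 2 ^ m ≤ n := by
    by_contra hlt
    push Not at hlt
    have h3 : n * n < 2 ^ m * 2 ^ m := Nat.mul_self_lt_mul_self hlt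
    have h4 : (2 : ℕ) ^ (2 * m + 1) = 2 * (2 ^ m * 2 ^ m) := by ring
    have h5 : I.card ≤ n * n := hcard2
    have h6 : 2 * I.card = 2 * Finset.card (Finset.univ.image lam) := rfl
    omega
  -- the translates under the torus
  let κ : Fˣ → F := fun α => (((α : F)) ^ (θm + 1))⁻¹
  have hκ0 : ∀ α, κ α ≠ 0 := fun α => inv_ne_zero (pow_ne_zero _ α.ne_zero)
  let chiM : Fˣ → (Multiplicative F →* ℂ) := fun α =>
    { toFun := fun c => χ₀ (κ α * c.toAdd)
      map_one' := by
        simp only [toAdd_one, mul_zero, h00]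
      map_mul' := by
        intro c c'
        rw [toAdd_mul, ← hadd, mul_add] }
  have hchi : ∀ α c, chiM α c = χ₀ (κ α * c.toAdd) := fun _ _ => rfl
  have hinjχ : Function.Injective chiM := by
    intro α α' h
    have hκe : κ α = κ α' := by
      by_contra hne
      have hne' : κ α + κ α' ≠ 0 := by
        intro h'
        apply hne
        have h4 := add_self C (κ α')
        linear_combination h' - h4
      have e1 := congrArg (fun L : Multiplicative F →* ℂ => L (Multiplicative.ofAdd (κ α + κ α')⁻¹)) h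
      simp only [hchi, toAdd_ofAdd] at e1
      have e2 : χ₀ (κ α * (κ α + κ α')⁻¹ + κ α' * (κ α + κ α')⁻¹) = 1 := by
        rw [hadd, e1, hsq]
      have e3 : κ α * (κ α + κ α')⁻¹ + κ α' * (κ α + κ α')⁻¹ = 1 := by
        rw [← add_mul, mul_inv_cancel₀ hne']
      rw [e3, h1] at e2
      norm_num at e2
    have h5 : ((α : F) / α') ^ (θm + 1) = 1 := by
      have := inv_injective hκe
      rw [div_pow, this]
      exact div_self (pow_ne_zero _ α'.ne_zero)
    have h6 := pow_theta_succ_eq_one hF (div_ne_zero α.ne_zero α'.ne_zero) h5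
    apply Units.ext
    field_simp at h6
    exact h6
  have hconj : ∀ (α : Fˣ) (b : F), sS hF 0 b * sM hF α = sM hF α * sS hF 0 (κ α * b) := by
    intro α b
    have h := sM_conj hF hm α 0 (κ α * b)
    rw [mul_zero, ← mul_assoc, mul_inv_cancel₀ (pow_ne_zero _ α.ne_zero), one_mul] at h
    rw [← h]
    group
  let bs := finBasis ℂ W
  let f : Fˣ × Fin n → V := fun p => ρ (sM hF p.1) (bs p.2 : V)
  have hli2 : LinearIndependent ℂ f := by
    rw [Fintype.linearIndependent_iff]
    intro g hg p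
    let u : Fˣ → W := fun α => ∑ j, g (α, j) • bs j
    have hg' : ∑ α, ρ (sM hF α) (u α : V) = 0 := by
      rw [← hg, Fintype.sum_prod_type]
      refine Finset.sum_congr rfl (fun α _ => ?_)
      simp only [u, f, Submodule.coe_sum, Submodule.coe_smul, map_sum, map_smul]
    have hx := eig_indep (fun c : Multiplicative F => z c.toAdd) chiM hinjχ (fun α => ρ (sM hF α) (u α : V)) (by
      intro α c
      change ρ _ (ρ _ _) = _
      rw [← rho_mul, hconj, rho_mul, hchi]
      have : ρ (sS hF 0 (κ α * c.toAdd)) (u α : V) = χ₀ (κ α * c.toAdd) • (u α : V) := (u α).2 _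
      rw [this, map_smul]) hg' p.1
    have hu : u p.1 = 0 := by
      apply Subtype.ext
      exact rho_eq_zero ρ hx
    have := Fintype.linearIndependent_iff.1 bs.linearIndependent (fun j => g (p.1, j)) hu p.2
    exact this
  have hcard3 := hli2.fintype_card_le_finrank
  rw [Fintype.card_prod, Fintype.card_units, Fintype.card_fin, hF] at hcard3
  calc 2 ^ m * (2 ^ (2 * m + 1) - 1) = (2 ^ (2 * m + 1) - 1) * 2 ^ m := mul_comm _ _
    _ ≤ (2 ^ (2 * m + 1) - 1) * n := Nat.mul_le_mul_left _ hmn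
    _ ≤ finrank ℂ V := hcard3

end

end CfsgLib.Sz
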