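/-
Actions of the Suzuki groups with fixity two.
-/
import Cfsg.Agent.Lib.Sz.PrimeGraph
import Cfsg.Agent.Lib.Sz.TorusFour

set_option autoImplicit false

namespace CfsgLib.Sz

open Matrix Cfsg
open scoped Pointwise

section abstract

variable {S Ω : Type*} [Group S] [MulAction S Ω]

/-- Three points fixed by an element with at most two fixed points. -/
lemma three_eq [Finite Ω] {g : S} (hfix : Nat.card (MulAction.fixedBy Ω g) ≤ 2) {a b c : Ω} (ha : g • a = a) (hb : g • b = b) (hc : g • c = c) :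
    a = b ∨ a = c ∨ b = c := by
  classical
  by_contra hcon
  push Not at hcon
  obtain ⟨hab, hac, hbc⟩ := hcon
  have h1 : ({a, b, c} : Set Ω) ⊆ MulAction.fixedBy Ω g := by
    rintro x (rfl | rfl | rfl)
    · exact ha
    · exact hb
    · exact hc
  have h2 := Set.ncard_le_ncard h1 (Set.toFinite _)
  rw [Set.ncard_eq_three.2 ⟨a, b, c, hab, hac, hbc, rfl⟩, ← Nat.card_coe_set_eq] at h2
  omega

/-- The square of an element moving three fixed points of an element. -/
lemma square_fix [Finite Ω] {z y : S} (hfix : Nat.card (MulAction.fixedBy Ω z) ≤ 2) {β : Ω} (h0 : z • β = β) (h1 : z • (y • β) = y • β) (h2 : z • (y • (y • β)) = y • (y • β)) :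
    y • (y • β) = β := by
  rcases three_eq hfix h0 h1 h2 with h | h | h
  · rw [← h, ← h]
  · exact h.symm
  · have : β = y • β := smul_left_cancel y h
    rw [← this, ← this]

/-- Elements of odd order are squares of powers. -/
lemma odd_sq {c : S} (h : Odd (orderOf c)) : ∃ k : ℕ, c ^ k * c ^ k = c := by
  obtain ⟨n, hn⟩ := h
  refine ⟨n + 1, ?_⟩
  rw [← pow_add]
  have : n + 1 + (n + 1) = orderOf c + 1 := by omega
  rw [this, pow_succ, pow_orderOf_eq_one, one_mul]

/-- An element of odd order commuting with a non-trivial element with a fixed point. -/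
lemma cent_fix [Finite Ω] {x c : S} (hfix : Nat.card (MulAction.fixedBy Ω x) ≤ 2) {α : Ω} (hx : x • α = α) (hc : c * x = x * c) (hodd : Odd (orderOf c)) : c • α = α := by
  obtain ⟨k, hk⟩ := odd_sq hodd
  have hcomm : Commute (c ^ k) x := Commute.pow_left hc k
  have h1 : x • (c ^ k • α) = c ^ k • α := by
    rw [← mul_smul, ← hcomm.eq, mul_smul, hx]
  have h2 : x • (c ^ k • (c ^ k • α)) = c ^ k • (c ^ k • α) := by
    rw [← mul_smul, ← hcomm.eq, mul_smul, h1]
  have h3 := square_fix hfix hx h1 h2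
  rw [← mul_smul, hk] at h3
  exact h3

lemma arith_fix {q h : ℕ} (hq : 2 ≤ q) (hev : 2 ∣ q) (h1 : q - 1 ∣ h) (h2 : h ∣ q ^ 2 - 1) (h3 : h ∣ q ^ 2 * (q - 1) * (q ^ 2 + 1)) : h = q - 1 := by
  obtain ⟨d, rfl⟩ := h1
  obtain ⟨t, rfl⟩ : ∃ t, q = t + 2 := ⟨q - 2, by omega⟩
  simp only [show t + 2 - 1 = t + 1 from rfl] at *
  have hpos : 0 < t + 1 := by omega
  have e1 : (t + 2) ^ 2 - 1 = (t + 1) * (t + 3) := by
    have : (t + 2) ^ 2 = (t + 1) * (t + 3) + 1 := by ring
    rw [this]
    simp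
  rw [e1] at h2
  have hd1 : d ∣ t + 3 := Nat.dvd_of_mul_dvd_mul_left hpos h2
  have e2 : (t + 2) ^ 2 * (t + 1) * ((t + 2) ^ 2 + 1) = (t + 1) * ((t + 2) ^ 2 * ((t + 2) ^ 2 + 1)) := by ring
  rw [e2] at h3
  have hd2 : d ∣ (t + 2) ^ 2 * ((t + 2) ^ 2 + 1) := Nat.dvd_of_mul_dvd_mul_left hpos h3
  have hc : Nat.Coprime d (t + 2) := by
    have : Nat.Coprime (t + 3) (t + 2) := by
      have h5 : Nat.Coprime (t + 2 + 1) (t + 2) := by simp
      exact h5
    exact Nat.Coprime.coprime_dvd_left hd1 this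
  have hd3 : d ∣ (t + 2) ^ 2 + 1 := (Nat.Coprime.pow_right 2 hc).dvd_of_dvd_mul_left hd2
  have e3 : (t + 2) ^ 2 + 1 = (t + 1) * (t + 3) + 2 := by ring
  rw [e3] at hd3
  have hd4 : d ∣ 2 := (Nat.dvd_add_right (hd1.mul_left _)).1 hd3
  have hd5 : d = 1 ∨ d = 2 := by
    have := Nat.le_of_dvd (by norm_num) hd4
    have h0 : d ≠ 0 := by
      rintro rfl
      simp at hd4
    omega
  rcases hd5 with rfl | rfl
  · simp
  · exfalso
    omega

end abstract

section

variable {F : Type*} [Field F] [Fintype F] {m : ℕ}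

local notation "SL4" => Matrix.SpecialLinearGroup (Fin 4) F

local notation "θm" => (2 ^ (m + 1) : ℕ)

local notation "∞'" => suzukiPointInfinity F

variable (hF : Fintype.card F = 2 ^ (2 * m + 1)) (hm : 1 ≤ m)

variable {Ω : Type*} [Finite Ω] [MulAction ↥(Sz F m) Ω]

include hF hm

lemma sM_square (γ : Fˣ) : ∃ δ : Fˣ, sM hF δ * sM hF δ = sM hF γ := by
  refine ⟨γ ^ (2 ^ (2 * m)), ?_⟩
  rw [sM_mul hF hm]
  congr 1
  rw [← pow_add]
  have e : 2 ^ (2 * m) + 2 ^ (2 * m) = Fintype.card F := by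
    rw [hF]
    ring
  rw [e]
  apply Units.ext
  simpa using FiniteField.pow_card (γ : F)

lemma sS_central (a b c : F) : sS hF 0 c * sS hF a b = sS hF a b * sS hF 0 c := by
  have hθ0 : (0 : F) ^ θm = 0 := zero_pow (by positivity)
  rw [sS_mul hF hm, sS_mul hF hm, hθ0]
  simp only [zero_mul, zero_add, add_zero, mul_zero]
  congr 1
  ring

lemma sS_split (a b : F) : sS hF a b = sS hF a 0 * sS hF 0 b := by
  rw [sS_mul hF hm]
  simp

/-- The key step: the fixed points of a central involution. -/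
theorem Q_fix (hfix : ∀ g : ↥(Sz F m), g ≠ 1 → Nat.card (MulAction.fixedBy Ω g) ≤ 2) {b₀ : F} (hb₀ : b₀ ≠ 0) {β : Ω} (hβ : sS hF 0 b₀ • β = β) :
    ∀ a b : F, sS hF a b • β = β := by
  have C := ctx_of_card (m := m) hF
  have h2 : (2 : F) = 0 := C.two
  have hadd : ∀ x : F, x + x = 0 := add_self C
  set z₀ := sS hF 0 b₀ with hz₀
  have hz1 : z₀ ≠ 1 := sS_ne_one hF hm (Or.inr hb₀)
  have hfz := hfix z₀ hz1
  have hθ0 : (0 : F) ^ θm = 0 := zero_pow (by positivity)
  by_contra hcon
  push Not at hcon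
  obtain ⟨a₀, c₀, hne⟩ := hcon
  set β' := sS hF a₀ c₀ • β with hβ'
  have hzu : ∀ (a c : F) (p : Ω), z₀ • p = p → z₀ • (sS hF a c • p) = sS hF a c • p := by
    intro a c p hp
    rw [← mul_smul, hz₀, sS_central hF hm, mul_smul, ← hz₀, hp]
  have hβ'z : z₀ • β' = β' := hzu _ _ _ hβ
  have htwo : ∀ p : Ω, z₀ • p = p → p = β ∨ p = β' := by
    intro p hp
    rcases three_eq hfz hβ hβ'z hp with h | h | h
    · exact absurd h.symm hne
    · exact Or.inl h.symm
    · exact Or.inr h.symm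
  -- squares fix `β`
  have hsq : ∀ a c : F, sS hF a c • (sS hF a c • β) = β := fun a c =>
    square_fix hfz hβ (hzu a c β hβ) (hzu a c _ (hzu a c β hβ))
  have hZ : ∀ b : F, sS hF 0 b • β = β := by
    intro b
    obtain ⟨a, ha⟩ := pow_succ_surj hF hm b
    have e : sS hF a 0 * sS hF a 0 = sS hF 0 b := by
      rw [sS_mul hF hm, hadd, ← ha]
      simp [pow_succ]
    rw [← e, mul_smul]
    exact hsq a 0
  have hZ' : ∀ b : F, sS hF 0 b • β' = β' := by
    intro b
    rw [hβ', ← mul_smul, sS_central hF hm, mul_smul, hZ]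
  -- the torus
  have hTz : ∀ (γ : Fˣ) (p : Ω), (∀ b : F, sS hF 0 b • p = p) → ∀ b : F, sS hF 0 b • (sM hF γ • p) = sM hF γ • p := by
    intro γ p hp b
    have e : sS hF 0 b * sM hF γ = sM hF γ * sS hF 0 (((γ : F) ^ (θm + 1))⁻¹ * b) := by
      have e2 := sM_conj hF hm γ 0 (((γ : F) ^ (θm + 1))⁻¹ * b)
      rw [mul_zero, mul_inv_cancel_left₀ (pow_ne_zero _ γ.ne_zero)] at e2
      rw [← e2]
      group
    rw [← mul_smul, e, mul_smul, hp]
  have hT : ∀ γ : Fˣ, sM hF γ • β = β := by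
    intro γ
    obtain ⟨δ, hδ⟩ := sM_square hF hm γ
    rw [← hδ, mul_smul]
    apply square_fix hfz hβ
    · exact hTz δ β hZ b₀
    · exact hTz δ _ (hTz δ β hZ) b₀
  -- the additive subgroup
  have hP : ∀ (γ : Fˣ) (a : F), sS hF a 0 • β = β → sS hF ((γ : F) * a) 0 • β = β := by
    intro γ a h
    have e := sM_conj hF hm γ a 0
    rw [mul_zero] at e
    rw [← e, mul_smul, mul_smul]
    have e3 : (sM hF γ)⁻¹ • β = β := by
      rw [inv_smul_eq_iff, hT]
    rw [e3, h, hT]
  have hnz : ∀ a : F, a ≠ 0 → sS hF a 0 • β ≠ β := by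
    intro a ha h
    apply hne
    rw [hβ', sS_split hF hm, mul_smul, hZ]
    by_cases h0 : a₀ = 0
    · rw [h0, sS_zero hF hm, one_smul]
    · have := hP (Units.mk0 (a₀ / a) (div_ne_zero h0 ha)) a h
      rw [Units.val_mk0, div_mul_cancel₀ _ ha] at this
      exact this
  -- two different non-zero elements
  obtain ⟨t, ht⟩ := exists_pow_ne hF hm
  have ht0 : t ≠ 0 := by
    rintro rfl
    exact ht hθ0
  have ht1 : t ≠ 1 := by
    rintro rfl
    exact ht (one_pow _)
  have hv : ∀ a : F, a ≠ 0 → sS hF a 0 • β = β' := by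
    intro a ha
    have hp : z₀ • (sS hF a 0 • β) = sS hF a 0 • β := hzu _ _ _ hβ
    rcases htwo _ hp with h | h
    · exact absurd h (hnz a ha)
    · exact h
  have e1 := hv 1 one_ne_zero
  have e2 := hv t ht0
  have hs : 1 + t ≠ 0 := by
    intro h
    apply ht1
    linear_combination h - h2
  have e3 : sS hF (1 + t) 0 • β = β := by
    have e4 : sS hF (1 : F) 0 * sS hF t 0 = sS hF (1 + t) (1 ^ θm * t + 0) := by
      rw [sS_mul hF hm]
      simp
    have e5 : (sS hF (1 : F) 0) • (sS hF t 0 • β) = β := by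
      rw [e2, ← e1, hsq]
    rw [← mul_smul, e4, sS_split hF hm, mul_smul, hZ] at e5
    exact e5
  exact hnz _ hs e3

/-- The case of an action where an involution has a fixed point. -/
theorem caseA (hfix : ∀ g : ↥(Sz F m), g ≠ 1 → Nat.card (MulAction.fixedBy Ω g) ≤ 2) (htr : ∀ a b : Ω, ∃ g : ↥(Sz F m), g • a = b)
    (hex : ∃ g : ↥(Sz F m), g ≠ 1 ∧ Nat.card (MulAction.fixedBy Ω g) = 2) {b₀ : F} (hb₀ : b₀ ≠ 0) {β : Ω} (hβ : sS hF 0 b₀ • β = β) :
    Nat.card Ω = Fintype.card F ^ 2 + 1 ∧ ∀ a b c d : Ω, a ≠ b → c ≠ d → ∃ g : ↥(Sz F m), g • a = c ∧ g • b = d := by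
  have hQ := Q_fix hF hm hfix hb₀ hβ
  have hfz := hfix (sS hF 0 b₀) (sS_ne_one hF hm (Or.inr hb₀))
  -- the torus
  have hTz : ∀ (γ : Fˣ) (p : Ω), (∀ a b : F, sS hF a b • p = p) → ∀ a b : F, sS hF a b • (sM hF γ • p) = sM hF γ • p := by
    intro γ p hp a b
    have e : sS hF a b * sM hF γ = sM hF γ * sS hF (((γ : F))⁻¹ * a) (((γ : F) ^ (θm + 1))⁻¹ * b) := by
      have e2 := sM_conj hF hm γ (((γ : F))⁻¹ * a) (((γ : F) ^ (θm + 1))⁻¹ * b)
      rw [mul_inv_cancel_left₀ γ.ne_zero, mul_inv_cancel_left₀ (pow_ne_zero _ γ.ne_zero)] at e2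
      rw [← e2]
      group
    rw [← mul_smul, e, mul_smul, hp]
  have hT : ∀ γ : Fˣ, sM hF γ • β = β := by
    intro γ
    obtain ⟨δ, hδ⟩ := sM_square hF hm γ
    rw [← hδ, mul_smul]
    apply square_fix hfz hβ
    · exact hTz δ β hQ 0 b₀
    · exact hTz δ _ (hTz δ β hQ) 0 b₀
  have hB : ∀ g : ↥(Sz F m), ((g : SL4) • ∞' = ∞') → g • β = β := by
    intro g hg
    obtain ⟨a, b, α, rfl⟩ := stab_cases hF hm g hg
    rw [mul_smul, hT, hQ]
  have hS : ∀ h : ↥(Sz F m), h • β = β → ((h : SL4) • ∞' = ∞') := by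
    intro h hh
    by_contra hne
    rcases bruhat_cases hF hm h with h1 | ⟨x, y, b, hb, rfl⟩
    · exact hne h1
    · have h2 : sT hF • β = β := by
        rw [mul_smul, mul_smul, hB b hb] at hh
        have e3 : (sS hF x y)⁻¹ • β = β := by
          rw [inv_smul_eq_iff, hQ]
        exact (eq_inv_smul_iff.2 hh).trans e3
      have hall : ∀ g : ↥(Sz F m), g • β = β := by
        intro g
        rcases bruhat_cases hF hm g with h1 | ⟨x', y', b', hb', rfl⟩
        · exact hB g h1
        · rw [mul_smul, mul_smul, hB b' hb', h2, hQ]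
      have huniv : ∀ ω : Ω, ω = β := by
        intro ω
        obtain ⟨g, rfl⟩ := htr β ω
        exact hall g
      obtain ⟨g, -, hg⟩ := hex
      haveI : Subsingleton Ω := ⟨fun a b => (huniv a).trans (huniv b).symm⟩
      have : Nat.card (MulAction.fixedBy Ω g) ≤ 1 := Finite.card_le_one_iff_subsingleton.2 inferInstance
      omega
  haveI : MulAction.IsPretransitive ↥(Sz F m) Ω := ⟨htr⟩
  constructor
  · have h1 := MulAction.index_stabilizer_of_transitive ↥(Sz F m) β
    have hO : MulAction.IsPretransitive ↥(Sz F m) (suzukiOvoid F m) := by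
      refine ⟨fun x y => ?_⟩
      by_cases hxy : x = y
      · exact ⟨1, by rw [hxy, one_smul]⟩
      · obtain ⟨g, h1, -⟩ := two_trans hF hm hxy (Ne.symm hxy)
        exact ⟨g, h1⟩
    have h2 := MulAction.index_stabilizer_of_transitive ↥(Sz F m) (ptInf : suzukiOvoid F m)
    rw [card_ovoid] at h2
    have h3 : MulAction.stabilizer ↥(Sz F m) β = MulAction.stabilizer ↥(Sz F m) (ptInf : suzukiOvoid F m) := by
      ext g
      rw [MulAction.mem_stabilizer_iff, MulAction.mem_stabilizer_iff]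
      constructor
      · intro h
        exact Subtype.ext (hS g h)
      · intro h
        exact hB g (congrArg Subtype.val h)
    rw [← h1, h3, h2]
  · have hmove : ∀ a b : Ω, a ≠ b → ∃ g : ↥(Sz F m), g • a = β ∧ g • b = sT hF • β := by
      intro a b hab
      obtain ⟨x, hx⟩ := htr a β
      obtain ⟨y, hy⟩ := htr β (x • b)
      have hb' : x • b ≠ β := by
        rw [← hx]
        exact fun e => hab (smul_left_cancel x e).symm
      have hy1 : ¬ ((y : SL4) • ∞' = ∞') := by
        intro h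
        apply hb'
        rw [← hy]
        exact hB y h
      rcases bruhat_cases hF hm y with h1 | ⟨u, v, b', hb'', rfl⟩
      · exact absurd h1 hy1
      · refine ⟨(sS hF u v)⁻¹ * x, ?_, ?_⟩
        · rw [mul_smul, hx, inv_smul_eq_iff, hQ]
        · rw [mul_smul, ← hy, mul_smul, mul_smul, hB b' hb'', inv_smul_smul]
    intro a b c d hab hcd
    obtain ⟨g₁, h1, h2⟩ := hmove a b hab
    obtain ⟨g₂, h3, h4⟩ := hmove c d hcd
    refine ⟨g₂⁻¹ * g₁, ?_, ?_⟩
    · rw [mul_smul, h1, inv_smul_eq_iff, h3]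
    · rw [mul_smul, h2, inv_smul_eq_iff, h4]

/-- The fixed points of a torus element on the ovoid. -/
lemma fix_O_torus (w : ↥(Sz F m)) {γ : Fˣ} (hγ : γ ≠ 1) :
    MulAction.fixedBy (suzukiOvoid F m) (w * sM hF γ * w⁻¹) = {w • ptInf, w • ptP 0 0} := by
  ext p
  simp only [MulAction.mem_fixedBy, Set.mem_insert_iff, Set.mem_singleton_iff]
  have key : (w * sM hF γ * w⁻¹) • p = p ↔ sM hF γ • (w⁻¹ • p) = w⁻¹ • p := by
    rw [mul_smul, mul_smul, ← eq_inv_smul_iff (g := w)]
  rw [key]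
  constructor
  · intro h
    have hp : w⁻¹ • p = ptInf ∨ w⁻¹ • p = ptP 0 0 := by
      rcases ovoid_cases (w⁻¹ • p).2 with h1 | ⟨x, y, h1⟩
      · exact Or.inl (Subtype.ext h1)
      · right
        have h2 : ((sM hF γ : ↥(Sz F m)) : SL4) • ((w⁻¹ • p : suzukiOvoid F m) : Projectivization F (Fin 4 → F)) = ((w⁻¹ • p : suzukiOvoid F m) : Projectivization F (Fin 4 → F)) := congrArg Subtype.val h
        rw [h1] at h2
        obtain ⟨hx, hy⟩ := fix_M hF hm hγ h2
        apply Subtype.ext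
        rw [h1, hx, hy]
        rfl
    rcases hp with h1 | h1
    · left
      rw [← h1, smul_inv_smul]
    · right
      rw [← h1, smul_inv_smul]
  · rintro (rfl | rfl)
    · rw [inv_smul_smul, M_fix_inf hF hm]
    · rw [inv_smul_smul, M_fix_zero hF hm]

/-- The structure of non-trivial elements of a point stabiliser. -/
lemma stab_torus (hfix : ∀ g : ↥(Sz F m), g ≠ 1 → Nat.card (MulAction.fixedBy Ω g) ≤ 2)
    (hno : ∀ i : ↥(Sz F m), orderOf i = 2 → ∀ ω : Ω, i • ω ≠ ω) {α : Ω} {x : ↥(Sz F m)} (hx1 : x ≠ 1) (hx : x • α = α) :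
    ∃ (w : ↥(Sz F m)) (γ : Fˣ), γ ≠ 1 ∧ x = w * sM hF γ * w⁻¹ ∧ ∀ δ : Fˣ, (w * sM hF δ * w⁻¹) • α = α := by
  classical
  haveI : Finite ↥(Sz F m) := finite_Sz
  have hfx := hfix x hx1
  rcases elem_cases hF hm x with hf | ⟨w, a, b, rfl⟩ | ⟨w, γ, rfl⟩
  · exfalso
    -- the centraliser fixes `α`
    set A := Subgroup.centralizer ({x} : Set ↥(Sz F m)) with hA
    have hT : IsTorus A := ⟨x, hf, rfl⟩
    have hAfix : ∀ c ∈ A, c • α = α := by
      intro c hc
      by_cases hc1 : c = 1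
      · rw [hc1, one_smul]
      · obtain ⟨hfc, -⟩ := torus_mem_eq hF hm hT hc hc1
        rw [hA, Subgroup.mem_centralizer_singleton_iff] at hc
        exact cent_fix hfx hx hc (order_fpf hF hm hfc)
    set N := Subgroup.normalizer (A : Set ↥(Sz F m)) with hN
    have hxA : x ∈ A := by
      rw [hA, Subgroup.mem_centralizer_singleton_iff]
    have horb : MulAction.orbit ↥N α ⊆ MulAction.fixedBy Ω x := by
      rintro _ ⟨n, rfl⟩
      show x • ((n : ↥(Sz F m)) • α) = (n : ↥(Sz F m)) • α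
      have hn := inv_mem n.2
      have h1 : (n : ↥(Sz F m))⁻¹ * x * (n : ↥(Sz F m)) ∈ A := by
        have := (Subgroup.mem_normalizer_iff.1 hn x).1 hxA
        simpa using this
      have e : x * (n : ↥(Sz F m)) = (n : ↥(Sz F m)) * ((n : ↥(Sz F m))⁻¹ * x * (n : ↥(Sz F m))) := by group
      rw [← mul_smul, e, mul_smul, hAfix _ h1]
    have h1 : (MulAction.orbit ↥N α).ncard ≤ 2 := by
      have := Set.ncard_le_ncard horb (Set.toFinite _)
      rw [← Nat.card_coe_set_eq (MulAction.fixedBy Ω x)] at this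
      omega
    have h2 := torus_four hF hm hT
    have h3 := (MulAction.stabilizer ↥N α).card_mul_index
    rw [MulAction.index_stabilizer, h2] at h3
    have h4 : (MulAction.orbit ↥N α).ncard ≠ 0 := by
      intro h0
      rw [h0, mul_zero] at h3
      have : 0 < Nat.card A := Nat.card_pos
      omega
    have h5 : 2 ∣ Nat.card (MulAction.stabilizer ↥N α) := by
      have h6 : (MulAction.orbit ↥N α).ncard = 1 ∨ (MulAction.orbit ↥N α).ncard = 2 := by omega
      rcases h6 with h6 | h6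
      · rw [h6, mul_one] at h3
        rw [h3]
        exact Dvd.dvd.mul_right (by norm_num) _
      · rw [h6] at h3
        have : Nat.card (MulAction.stabilizer ↥N α) = 2 * Nat.card A := by omega
        rw [this]
        exact Dvd.intro _ rfl
    haveI : Fact (Nat.Prime 2) := ⟨Nat.prime_two⟩
    obtain ⟨i, hi⟩ := exists_prime_orderOf_dvd_card' 2 h5
    have hi1 : orderOf ((i : ↥N) : ↥(Sz F m)) = 2 := by
      rw [← hi]
      rw [Subgroup.orderOf_coe, Subgroup.orderOf_coe]
    exact hno _ hi1 α i.2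
  · exfalso
    set x := w * sS hF a b * w⁻¹ with hxdef
    obtain ⟨k, hk⟩ := order_S hF hm a b
    have hox : orderOf x = 2 ^ k := by
      rw [hxdef, order_conj hF hm, hk]
    have hk0 : k ≠ 0 := by
      rintro rfl
      rw [pow_zero, orderOf_eq_one_iff] at hox
      exact hx1 hox
    have h2 : 2 ∣ orderOf x := by
      rw [hox]
      exact dvd_pow_self 2 hk0
    have h3 := orderOf_pow_orderOf_div (x := x) (by rw [hox]; positivity) h2
    have h4 : x ^ (orderOf x / 2) • α = α := by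
      have : x ∈ MulAction.stabilizer ↥(Sz F m) α := hx
      exact Subgroup.pow_mem _ this _
    exact hno _ h3 α h4
  · refine ⟨w, γ, ?_, rfl, fun δ => ?_⟩
    · rintro rfl
      rw [sM_one hF hm] at hx1
      simp at hx1
    · apply cent_fix hfx hx
      · have e1 := sM_mul hF hm δ γ
        have e2 := sM_mul hF hm γ δ
        have e3 : sM hF δ * sM hF γ = sM hF γ * sM hF δ := by
          rw [e1, e2, mul_comm]
        calc w * sM hF δ * w⁻¹ * (w * sM hF γ * w⁻¹) = w * (sM hF δ * sM hF γ) * w⁻¹ := by group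
          _ = w * (sM hF γ * sM hF δ) * w⁻¹ := by rw [e3]
          _ = _ := by group
      · rw [order_conj hF hm]
        exact order_M hF hm δ

/-- The case of an action where no involution has a fixed point. -/
theorem caseB (hfix : ∀ g : ↥(Sz F m), g ≠ 1 → Nat.card (MulAction.fixedBy Ω g) ≤ 2) (htr : ∀ a b : Ω, ∃ g : ↥(Sz F m), g • a = b)
    (hex : ∃ g : ↥(Sz F m), g ≠ 1 ∧ Nat.card (MulAction.fixedBy Ω g) = 2) (hno : ∀ i : ↥(Sz F m), orderOf i = 2 → ∀ ω : Ω, i • ω ≠ ω) :
    Nat.card Ω = Fintype.card F ^ 2 * (Fintype.card F ^ 2 + 1) ∧ ∀ α : Ω, Nat.card (MulAction.stabilizer ↥(Sz F m) α) = Fintype.card F - 1 := by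
  classical
  haveI : Finite ↥(Sz F m) := finite_Sz
  haveI : Fintype ↥(Sz F m) := Fintype.ofFinite _
  haveI : Fintype (suzukiOvoid F m) := Fintype.ofFinite _
  haveI : MulAction.IsPretransitive ↥(Sz F m) Ω := ⟨htr⟩
  set q := Fintype.card F with hq
  have hq8 : 2 ≤ q := by
    rw [hF]
    calc 2 = 2 ^ 1 := by norm_num
      _ ≤ 2 ^ (2 * m + 1) := Nat.pow_le_pow_right (by norm_num) (by omega)
  have hev : 2 ∣ q := by
    rw [hF]
    exact dvd_pow_self 2 (by omega)
  have hstab : ∀ α : Ω, Nat.card (MulAction.stabilizer ↥(Sz F m) α) = q - 1 := by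
    intro α
    set H := MulAction.stabilizer ↥(Sz F m) α with hH
    -- a non-trivial element
    obtain ⟨g, hg1, hg2⟩ := hex
    have hne : (MulAction.fixedBy Ω g).Nonempty := by
      by_contra hcon
      rw [Set.not_nonempty_iff_eq_empty] at hcon
      rw [hcon] at hg2
      simp at hg2
    obtain ⟨ω, hω⟩ := hne
    obtain ⟨h, hh⟩ := htr ω α
    have hx1 : h * g * h⁻¹ ≠ 1 := by
      intro e
      apply hg1
      have : g = h⁻¹ * (h * g * h⁻¹) * h := by group
      rw [this, e]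
      group
    have hx : (h * g * h⁻¹) • α = α := by
      rw [mul_smul, mul_smul, ← hh, inv_smul_smul, hω]
    obtain ⟨w, γ, hγ, -, hδ⟩ := stab_torus hF hm hfix hno hx1 hx
    -- the order of the torus divides
    let φ : Fˣ →* H :=
      { toFun := fun δ => ⟨w * sM hF δ * w⁻¹, hδ δ⟩
        map_one' := by
          apply Subtype.ext
          show w * sM hF 1 * w⁻¹ = 1
          rw [sM_one hF hm]
          group
        map_mul' := fun δ δ' => by
          apply Subtype.ext
          show w * sM hF (δ * δ') * w⁻¹ = (w * sM hF δ * w⁻¹) * (w * sM hF δ' * w⁻¹)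
          rw [← sM_mul hF hm]
          group }
    have hφ : Function.Injective φ := by
      intro δ δ' e
      have e1 : w * sM hF δ * w⁻¹ = w * sM hF δ' * w⁻¹ := congrArg Subtype.val e
      have e2 : sM hF δ = sM hF δ' := by
        simpa using e1
      by_contra hne
      have e3 : sM hF (δ * δ'⁻¹) = 1 := by
        rw [← sM_mul hF hm, ← sM_inv hF hm, e2, mul_inv_cancel]
      exact sM_ne_one hF hm (fun e4 => hne (mul_inv_eq_one.1 e4)) e3
    have h1 : q - 1 ∣ Nat.card H := by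
      have := Subgroup.card_dvd_of_injective φ hφ
      rwa [Nat.card_eq_fintype_card (α := Fˣ), Fintype.card_units] at this
    -- Burnside on the ovoid
    have hB := MulAction.sum_card_fixedBy_eq_card_orbits_mul_card_group H (suzukiOvoid F m)
    have hfixO : ∀ y : H, y ≠ 1 → Fintype.card (MulAction.fixedBy (suzukiOvoid F m) y) = 2 := by
      intro y hy
      have hy1 : (y : ↥(Sz F m)) ≠ 1 := fun e => hy (Subtype.ext e)
      obtain ⟨w', γ', hγ', e', -⟩ := stab_torus hF hm hfix hno hy1 y.2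
      have e2 : MulAction.fixedBy (suzukiOvoid F m) y = MulAction.fixedBy (suzukiOvoid F m) (y : ↥(Sz F m)) := rfl
      rw [← Nat.card_eq_fintype_card, e2, e', fix_O_torus hF hm w' hγ', Nat.card_coe_set_eq, Set.ncard_pair]
      intro e3
      exact ptInf_ne hF hm 0 0 (smul_left_cancel _ e3)
    have hfix1 : Fintype.card (MulAction.fixedBy (suzukiOvoid F m) (1 : H)) = q ^ 2 + 1 := by
      rw [← Nat.card_eq_fintype_card, MulAction.fixedBy_one_eq_univ, Nat.card_coe_set_eq, Set.ncard_univ, card_ovoid]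
    rw [← Finset.add_sum_erase _ _ (Finset.mem_univ (1 : H)), hfix1] at hB
    have hsum : ∑ y ∈ Finset.univ.erase (1 : H), Fintype.card (MulAction.fixedBy (suzukiOvoid F m) y) = (Fintype.card H - 1) * 2 := by
      rw [Finset.sum_congr rfl (fun y hy => hfixO y (Finset.ne_of_mem_erase hy)), Finset.sum_const, Finset.card_erase_of_mem (Finset.mem_univ _), Finset.card_univ]
      rfl
    rw [hsum] at hB
    have hHpos : 1 ≤ Fintype.card H := Fintype.card_pos
    have h2 : Nat.card H ∣ q ^ 2 - 1 := by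
      rw [Nat.card_eq_fintype_card]
      set n := Fintype.card (Quotient (MulAction.orbitRel (↥H) (suzukiOvoid F m)))
      set c := Fintype.card H with hc
      have hq1 : 1 ≤ q ^ 2 := Nat.one_le_pow _ _ (by omega)
      have e1 : q ^ 2 - 1 + c * 2 = n * c := by
        have : (c - 1) * 2 = c * 2 - 2 := by
          rw [Nat.sub_mul]
        omega
      have e2 : c ∣ q ^ 2 - 1 + c * 2 := by
        rw [e1]
        exact Dvd.intro_left _ rfl
      exact (Nat.dvd_add_left (Dvd.intro _ rfl)).1 e2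
    have h3 : Nat.card H ∣ q ^ 2 * (q - 1) * (q ^ 2 + 1) := by
      have e1 := Subgroup.card_subgroup_dvd_card H
      rw [card_Sz hF hm, ← hF] at e1
      have e2 : q ^ 2 * (q - 1) * (q ^ 2 + 1) = q ^ 2 * (q ^ 2 + 1) * (q - 1) := by ring
      rw [e2]
      exact e1
    exact arith_fix hq8 hev h1 h2 h3
  refine ⟨?_, hstab⟩
  obtain ⟨α⟩ : Nonempty Ω := by
    obtain ⟨g, hg1, hg2⟩ := hex
    by_contra hcon
    rw [not_nonempty_iff] at hcon
    have : Nat.card (MulAction.fixedBy Ω g) = 0 := Nat.card_of_isEmpty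
    omega
  have e1 := MulAction.index_stabilizer_of_transitive ↥(Sz F m) α
  have e2 := (MulAction.stabilizer ↥(Sz F m) α).card_mul_index
  rw [e1, hstab α, card_Sz hF hm, ← hF] at e2
  have e3 : (q - 1) * Nat.card Ω = (q - 1) * (q ^ 2 * (q ^ 2 + 1)) := by
    rw [e2]
    ring
  exact Nat.eq_of_mul_eq_mul_left (by omega) e3

/-- The main theorem on actions with fixity two. -/
theorem fixity_main (hfix : ∀ g : ↥(Sz F m), g ≠ 1 → Nat.card (MulAction.fixedBy Ω g) ≤ 2) (htr : ∀ a b : Ω, ∃ g : ↥(Sz F m), g • a = b)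
    (hex : ∃ g : ↥(Sz F m), g ≠ 1 ∧ Nat.card (MulAction.fixedBy Ω g) = 2) :
    (Nat.card Ω = Fintype.card F ^ 2 + 1 ∧ ∀ a b c d : Ω, a ≠ b → c ≠ d → ∃ g : ↥(Sz F m), g • a = c ∧ g • b = d) ∨
    (Nat.card Ω = Fintype.card F ^ 2 * (Fintype.card F ^ 2 + 1) ∧ ∀ α : Ω, Nat.card (MulAction.stabilizer ↥(Sz F m) α) = Fintype.card F - 1) := by
  by_cases hinv : ∃ i : ↥(Sz F m), orderOf i = 2 ∧ ∃ ω : Ω, i • ω = ω
  · left
    obtain ⟨i, hi, ω, hω⟩ := hinv
    have hno2 : ¬ Odd (orderOf i) := by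
      rw [hi]
      decide
    rcases elem_cases hF hm i with hf | ⟨x, a, b, rfl⟩ | ⟨x, α, rfl⟩
    · exact absurd (order_fpf hF hm hf) hno2
    · rw [order_conj hF hm] at hi
      have C := ctx_of_card (m := m) hF
      have e1 : sS hF a b * sS hF a b = 1 := by
        rw [← pow_two, ← hi, pow_orderOf_eq_one]
      rw [sS_mul hF hm, ← sS_zero hF hm] at e1
      obtain ⟨-, e2⟩ := sS_inj hF hm e1
      rw [add_self C, zero_add] at e2
      have ha : a = 0 := by
        rcases mul_eq_zero.1 e2 with h | h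
        · exact pow_eq_zero_iff (by positivity) |>.1 h
        · exact h
      subst ha
      have hb : b ≠ 0 := by
        rintro rfl
        rw [sS_zero hF hm, orderOf_one] at hi
        omega
      refine caseA hF hm hfix htr hex hb (β := x⁻¹ • ω) ?_
      have : x • (sS hF 0 b • x⁻¹ • ω) = ω := by
        rw [← mul_smul, ← mul_smul]
        exact hω
      exact eq_inv_smul_iff.2 this
    · exact absurd (by rw [order_conj hF hm]; exact order_M hF hm α) hno2
  · right
    push Not at hinv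
    exact caseB hF hm hfix htr hex hinv

end

end CfsgLib.Sz

namespace CfsgLib.Sz

open Cfsg

/-- The statement for an abstract copy of the matrix group. -/
theorem fixity_final {G : Type*} [Group G] [Finite G] (F : Type) [Field F] [Fintype F] (m : ℕ) (hm : 1 ≤ m) (hF : Fintype.card F = 2 ^ (2 * m + 1))
    (e : G ≃* ↥(Lie.Sz F (2 ^ (m + 1)))) {Ω : Type*} [Fintype Ω] [MulAction G Ω] [FaithfulSMul G Ω] (htr : MulAction.IsPretransitive G Ω)
    (hfix : ∀ g : G, g ≠ 1 → Nat.card (MulAction.fixedBy Ω g) ≤ 2) (hex : ∃ g : G, g ≠ 1 ∧ Nat.card (MulAction.fixedBy Ω g) = 2) :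
    (Fintype.card Ω = Fintype.card F ^ 2 + 1 ∧ MulAction.IsMultiplyPretransitive G Ω 2) ∨
    (Fintype.card Ω = Fintype.card F ^ 2 * (Fintype.card F ^ 2 + 1) ∧ ∀ α : Ω, Nat.card (MulAction.stabilizer G α) = Fintype.card F - 1) := by
  set E : ↥(Sz F m) ≃* G := (lieEquiv hF hm).trans e.symm with hE
  letI : MulAction ↥(Sz F m) Ω := MulAction.compHom Ω E.toMonoidHom
  have hsm : ∀ (g : ↥(Sz F m)) (ω : Ω), g • ω = E g • ω := fun g ω => rfl
  have h := fixity_main (Ω := Ω) hF hm
    (fun g hg => hfix (E g) (fun h1 => hg (E.injective (by rw [h1, map_one]))))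
    (fun a b => by
      obtain ⟨g, hg⟩ := htr.exists_smul_eq a b
      exact ⟨E.symm g, by rw [hsm]; simpa using hg⟩)
    (by
      obtain ⟨g, hg1, hg2⟩ := hex
      refine ⟨E.symm g, fun h1 => hg1 (E.symm.injective (by rw [h1, map_one])), ?_⟩
      have : MulAction.fixedBy Ω (E.symm g) = MulAction.fixedBy Ω g := by
        ext ω
        show E (E.symm g) • ω = ω ↔ g • ω = ω
        simp
      rw [this]
      exact hg2)
  rcases h with ⟨h1, h2⟩ | ⟨h1, h2⟩
  · left
    refine ⟨by rw [← Nat.card_eq_fintype_card]; exact h1, ?_⟩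
    rw [MulAction.is_two_pretransitive_iff]
    intro a b c d hab hcd
    obtain ⟨g, hg1, hg2⟩ := h2 a b c d hab hcd
    exact ⟨E g, hg1, hg2⟩
  · right
    refine ⟨by rw [← Nat.card_eq_fintype_card]; exact h1, fun α => ?_⟩
    rw [← h2 α]
    have hmap : (MulAction.stabilizer ↥(Sz F m) α).map E.toMonoidHom = MulAction.stabilizer G α := by
      ext g
      constructor
      · rintro ⟨y, hy, rfl⟩
        exact hy
      · intro hg
        refine ⟨E.symm g, ?_, by simp⟩
        show E (E.symm g) • α = α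
        simpa using hg
    rw [← hmap, Subgroup.card_map_of_injective E.injective]

end CfsgLib.Sz
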