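/-
Laws in the Suzuki groups: the word normal form and the degree count.
-/
import Cfsg.Agent.Lib.Sz.Aut
import Mathlib.GroupTheory.FreeGroup.Reduce

set_option autoImplicit false

namespace CfsgLib.Sz

open Matrix Cfsg Polynomial
open scoped Pointwise

section poly

variable {F : Type*} [Field F]

/-- The polynomial matrix of `S(cX, eX^(θ+1)) T`. -/
noncomputable def mhat (θ : ℕ) (p : F × F) : Matrix (Fin 4) (Fin 4) F[X] :=
  !![C (fo θ p.1 p.2) * X ^ (θ + 2), C (p.2 + p.1 ^ (θ + 1)) * X ^ (θ + 1), C p.1 * X, 1;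
     C p.2 * X ^ (θ + 1), C (p.1 ^ θ) * X ^ θ, 1, 0;
     C p.1 * X, 1, 0, 0;
     1, 0, 0, 0]

lemma mat_bound (a b c d e f : F[X]) (k : ℕ) (hb : b.natDegree ≤ k) (hc : c.natDegree ≤ k) (hd : d.natDegree ≤ k) (he : e.natDegree ≤ k) (hf : f.natDegree ≤ k) (i j : Fin 4) (hij : (i, j) ≠ ((0 : Fin 4), (0 : Fin 4))) :
    ((!![a, b, c, 1; d, e, 1, 0; f, 1, 0, 0; 1, 0, 0, 0] : Matrix (Fin 4) (Fin 4) F[X]) i j).natDegree ≤ k := by
  fin_cases i <;> fin_cases j <;> first | exact absurd rfl hij | simpa using hb | simpa using hc | simpa using hd | simpa using he | simpa using hf | simp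

/-- The degree bounds for the entries. -/
lemma mhat_deg (θ : ℕ) (hθ : 1 ≤ θ) (p : F × F) (i j : Fin 4) (hij : (i, j) ≠ ((0 : Fin 4), (0 : Fin 4))) : (mhat θ p i j).natDegree ≤ θ + 1 := by
  have h1 : ∀ c : F, (C c * X ^ (θ + 1) : F[X]).natDegree ≤ θ + 1 := fun c => natDegree_C_mul_X_pow_le c _
  have h2 : ∀ c : F, (C c * X ^ θ : F[X]).natDegree ≤ θ + 1 := fun c => (natDegree_C_mul_X_pow_le c _).trans (by omega)
  have h3 : ∀ c : F, (C c * X : F[X]).natDegree ≤ θ + 1 := fun c => by
    have := natDegree_C_mul_X_pow_le (R := F) c 1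
    rw [pow_one] at this
    omega
  exact mat_bound _ _ _ _ _ _ _ (h1 _) (h3 _) (h1 _) (h2 _) (h3 _) i j hij

lemma mhat_top (θ : ℕ) (p : F × F) (h : fo θ p.1 p.2 ≠ 0) : (mhat θ p 0 0).natDegree = θ + 2 := by
  have : mhat θ p 0 0 = C (fo θ p.1 p.2) * X ^ (θ + 2) := by simp [mhat]
  rw [this]
  exact natDegree_C_mul_X_pow _ _ h

/-- The product of the polynomial matrices. -/
noncomputable def phat (θ : ℕ) (Q : List (F × F)) : Matrix (Fin 4) (Fin 4) F[X] := (Q.map (mhat θ)).prod

/-- The degree count of the product. -/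
lemma phat_deg (θ : ℕ) (hθ : 1 ≤ θ) (q : F × F) (Q : List (F × F)) (hQ : ∀ p ∈ q :: Q, fo θ p.1 p.2 ≠ 0) :
    (phat θ (q :: Q) 0 0).natDegree = (Q.length + 1) * (θ + 2) ∧
      ∀ i j, (i, j) ≠ ((0 : Fin 4), (0 : Fin 4)) → (phat θ (q :: Q) i j).natDegree + 1 ≤ (Q.length + 1) * (θ + 2) := by
  induction Q generalizing q with
  | nil =>
    have e : phat θ [q] = mhat θ q := by simp [phat]
    rw [e]
    refine ⟨by simpa using mhat_top θ q (hQ q (by simp)), fun i j hij => ?_⟩
    have := mhat_deg θ hθ q i j hij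
    simp only [List.length_nil, zero_add, one_mul]
    omega
  | cons q' Q ih =>
    obtain ⟨ih1, ih2⟩ := ih q' (fun p hp => hQ p (List.mem_cons_of_mem _ hp))
    have e : phat θ (q :: q' :: Q) = mhat θ q * phat θ (q' :: Q) := by simp [phat]
    rw [e]
    set n := (Q.length + 1) * (θ + 2) with hn
    set A := mhat θ q with hA
    set B := phat θ (q' :: Q) with hB
    have hlen : (q' :: Q).length + 1 = Q.length + 1 + 1 := rfl
    rw [hlen]
    have hn' : (Q.length + 1 + 1) * (θ + 2) = n + (θ + 2) := by rw [hn]; ring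
    rw [hn']
    have hnpos : 1 ≤ n := by
      rw [hn]
      exact Nat.mul_pos (by omega) (by omega)
    have hAtop := mhat_top θ q (hQ q (by simp))
    have hA0 : A 0 0 ≠ 0 := by
      intro h0
      rw [← hA, h0] at hAtop
      simp at hAtop
    have hB0 : B 0 0 ≠ 0 := by
      intro h0
      rw [h0] at ih1
      simp at ih1
    have hAle : ∀ i l : Fin 4, (A i l).natDegree ≤ θ + 2 := by
      intro i l
      by_cases h : (i, l) = ((0 : Fin 4), (0 : Fin 4))
      · obtain ⟨rfl, rfl⟩ := Prod.mk.inj h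
        exact hAtop.le
      · have := mhat_deg θ hθ q i l h
        exact this.trans (by omega)
    have hBle : ∀ l j : Fin 4, (B l j).natDegree ≤ n := by
      intro l j
      by_cases h : (l, j) = ((0 : Fin 4), (0 : Fin 4))
      · obtain ⟨rfl, rfl⟩ := Prod.mk.inj h
        exact ih1.le
      · have := ih2 l j h
        omega
    -- the general term
    have hterm : ∀ i j l : Fin 4, (i, l) ≠ ((0 : Fin 4), (0 : Fin 4)) ∨ (l, j) ≠ ((0 : Fin 4), (0 : Fin 4)) → (A i l * B l j).natDegree + 1 ≤ n + (θ + 2) := by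
      intro i j l h
      have h1 := natDegree_mul_le (p := A i l) (q := B l j)
      rcases h with h | h
      · have h2 := mhat_deg θ hθ q i l h
        have h3 := hBle l j
        rw [← hA] at h2
        omega
      · have h2 := hAle i l
        have h3 := ih2 l j h
        omega
    constructor
    · rw [Matrix.mul_apply, Fin.sum_univ_four]
      have ht0 : (A 0 0 * B 0 0).natDegree = n + (θ + 2) := by
        rw [natDegree_mul hA0 hB0, hAtop, ih1]
        ring
      have h1 := hterm 0 0 1 (Or.inl (by simp))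
      have h2 := hterm 0 0 2 (Or.inl (by simp))
      have h3 := hterm 0 0 3 (Or.inl (by simp))
      have hlt : (A 0 1 * B 1 0 + A 0 2 * B 2 0 + A 0 3 * B 3 0).natDegree < (A 0 0 * B 0 0).natDegree := by
        rw [ht0]
        refine lt_of_le_of_lt (natDegree_add_le _ _) ?_
        refine max_lt (lt_of_le_of_lt (natDegree_add_le _ _) (max_lt ?_ ?_)) ?_ <;> omega
      have e2 : A 0 0 * B 0 0 + A 0 1 * B 1 0 + A 0 2 * B 2 0 + A 0 3 * B 3 0 = A 0 0 * B 0 0 + (A 0 1 * B 1 0 + A 0 2 * B 2 0 + A 0 3 * B 3 0) := by ring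
      rw [e2, natDegree_add_eq_left_of_natDegree_lt hlt, ht0]
    · intro i j hij
      rw [Matrix.mul_apply, Fin.sum_univ_four]
      have key : ∀ l : Fin 4, (A i l * B l j).natDegree + 1 ≤ n + (θ + 2) := by
        intro l
        apply hterm
        by_contra hcon
        push Not at hcon
        obtain ⟨h1, h2⟩ := hcon
        obtain ⟨rfl, rfl⟩ := Prod.mk.inj h1
        obtain ⟨_, rfl⟩ := Prod.mk.inj h2
        exact hij rfl
      have h0 := key 0
      have h1 := key 1
      have h2 := key 2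
      have h3 := key 3
      have hle := natDegree_add_le (A i 0 * B 0 j + A i 1 * B 1 j + A i 2 * B 2 j) (A i 3 * B 3 j)
      have hle2 := natDegree_add_le (A i 0 * B 0 j + A i 1 * B 1 j) (A i 2 * B 2 j)
      have hle3 := natDegree_add_le (A i 0 * B 0 j) (A i 1 * B 1 j)
      simp only [le_max_iff] at hle hle2 hle3
      omega

end poly

section

variable {F : Type*} [Field F] [Fintype F] {m : ℕ}

local notation "SL4" => Matrix.SpecialLinearGroup (Fin 4) F

local notation "θm" => (2 ^ (m + 1) : ℕ)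

local notation "∞'" => suzukiPointInfinity F

variable (hF : Fintype.card F = 2 ^ (2 * m + 1)) (hm : 1 ≤ m)

/-- A translation depending on a parameter. -/
def pS (x : F) (p : F × F) : ↥(Sz F m) := sS hF (p.1 * x) (p.2 * x ^ (θm + 1))

/-- The product of the parameters. -/
def pmul (θ : ℕ) (p p' : F × F) : F × F := (p.1 + p'.1, p.2 + p'.2 + p.1 ^ θ * p'.1)

/-- A product of blocks. -/
def blockProd (x : F) (Q : List (F × F)) : ↥(Sz F m) := (Q.map fun p => pS hF x p * sT hF).prod

/-- The image of a generator. -/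
def letterS (c : ℕ → F) (x : F) (i : ℕ) : ↥(Sz F m) :=
  pS hF x (c i, 0) * sT hF * (pS hF x (c i, 0) * sT hF)

/-- The evaluation of a word. -/
def wordEval (c : ℕ → F) (x : F) (L : List (ℕ × Bool)) : ↥(Sz F m) :=
  (L.map fun y => cond y.2 (letterS hF c x y.1) (letterS hF c x y.1)⁻¹).prod

include hm

lemma pS_mul (x : F) (p p' : F × F) : pS hF x p * pS hF x p' = pS hF x (pmul θm p p') := by
  unfold pS pmul
  rw [sS_mul hF hm]
  congr 1
  · simp only
    ring
  · simp only
    ring

lemma pS_inv (x c : F) : (pS hF x (c, 0))⁻¹ = pS hF x (c, c ^ (θm + 1)) := by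
  have C₀ := ctx_of_card (m := m) hF
  rw [inv_eq_iff_mul_eq_one, pS_mul hF hm]
  unfold pS pmul
  simp only
  rw [← sS_zero hF hm]
  have h2 := C₀.two
  congr 1
  · linear_combination (c * x) * h2
  · rw [pow_succ]
    linear_combination (c ^ θm * c * x ^ (θm + 1)) * h2

lemma sT_inv' : (sT hF)⁻¹ = sT hF := by
  rw [inv_eq_iff_mul_eq_one]
  exact sT_sq hF hm

lemma letter_inv (c : ℕ → F) (x : F) (i : ℕ) :
    (letterS hF c x i)⁻¹ = sT hF * (pS hF x (c i, (c i) ^ (θm + 1)) * sT hF) * (pS hF x (c i, (c i) ^ (θm + 1)) * sT hF) * sT hF := by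
  unfold letterS
  rw [← pS_inv hF hm]
  have h := sT_inv' (F := F) hF hm
  have h2 := sT_sq hF hm
  set T₀ := sT hF
  set S₀ := pS hF x (c i, 0)
  calc (S₀ * T₀ * (S₀ * T₀))⁻¹ = T₀⁻¹ * S₀⁻¹ * T₀⁻¹ * S₀⁻¹ := by group
    _ = T₀ * S₀⁻¹ * T₀ * S₀⁻¹ := by rw [h]
    _ = T₀ * (S₀⁻¹ * T₀) * (S₀⁻¹ * (T₀ * T₀)) := by rw [h2]; group
    _ = _ := by group

omit hm in
lemma blockProd_cons (x : F) (p : F × F) (Q : List (F × F)) : blockProd hF x (p :: Q) = pS hF x p * sT hF * blockProd hF x Q := by
  simp [blockProd]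

omit hm in
lemma wordEval_cons (c : ℕ → F) (x : F) (y : ℕ × Bool) (L : List (ℕ × Bool)) :
    wordEval hF c x (y :: L) = cond y.2 (letterS hF c x y.1) (letterS hF c x y.1)⁻¹ * wordEval hF c x L := by
  simp [wordEval]

/-- The normal form of a reduced word. -/
theorem word_form (c : ℕ → F) (I : ℕ → Prop) (hc0 : ∀ i, I i → c i ≠ 0) (hinj : ∀ i j, I i → I j → i ≠ j → c i ≠ c j) (L : List (ℕ × Bool)) :
    ∀ (j : ℕ) (b : Bool), I j → (∀ y ∈ L, I y.1) → FreeGroup.IsReduced ((j, b) :: L) →
      ∃ (q : F × F) (Q : List (F × F)) (ε : Bool), q.1 = c j ∧ (∀ p ∈ q :: Q, p.1 ≠ 0) ∧ Q.length + 1 ≤ 2 * (L.length + 1) ∧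
        ∀ x : F, wordEval hF c x ((j, b) :: L) = cond b 1 (sT hF) * blockProd hF x (q :: Q) * cond ε (sT hF) 1 := by
  have C₀ := ctx_of_card (m := m) hF
  have h2F := C₀.two
  have hsq := sT_sq hF hm
  induction L with
  | nil =>
    intro j b hj _ _
    cases b with
    | true =>
      refine ⟨(c j, 0), [(c j, 0)], false, rfl, ?_, by simp, fun x => ?_⟩
      · intro p hp
        simp only [List.mem_cons, List.not_mem_nil, or_false, or_self] at hp
        subst hp
        exact hc0 j hj
      · rw [wordEval_cons, blockProd_cons, blockProd_cons]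
        simp only [cond_true, cond_false, one_mul, mul_one]
        simp [wordEval, blockProd, letterS, mul_assoc]
    | false =>
      refine ⟨(c j, (c j) ^ (θm + 1)), [(c j, (c j) ^ (θm + 1))], true, rfl, ?_, by simp, fun x => ?_⟩
      · intro p hp
        simp only [List.mem_cons, List.not_mem_nil, or_false, or_self] at hp
        subst hp
        exact hc0 j hj
      · rw [wordEval_cons, blockProd_cons, blockProd_cons]
        simp only [cond_true, cond_false]
        rw [letter_inv hF hm]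
        simp [wordEval, blockProd, mul_assoc]
  | cons y L ih =>
    intro j b hj hL hred
    obtain ⟨j', b'⟩ := y
    rw [FreeGroup.isReduced_cons_cons] at hred
    obtain ⟨hrel, hred'⟩ := hred
    have hj' : I j' := hL _ (List.mem_cons_self)
    obtain ⟨q₀, Q₀, ε, hq₀, hne, hlen, hform⟩ := ih j' b' hj' (fun y hy => hL y (List.mem_cons_of_mem _ hy)) hred'
    have hne₀ := hne q₀ (List.mem_cons_self)
    have hlen' : (q₀ :: Q₀).length + 1 ≤ 2 * ((j', b') :: L).length + 1 := by
      simp only [List.length_cons] at hlen ⊢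
      omega
    have hmerge : j ≠ j' ∨ b = b' := by
      by_cases h : j = j'
      · exact Or.inr (hrel h)
      · exact Or.inl h
    have hsq' : ∀ z : ↥(Sz F m), sT hF * (sT hF * z) = z := by
      intro z
      rw [← mul_assoc, hsq, one_mul]
    have hmemfour : ∀ (a a' : F × F), a.1 ≠ 0 → a'.1 ≠ 0 → ∀ p ∈ a :: a' :: q₀ :: Q₀, p.1 ≠ 0 := by
      intro a a' h1 h2 p hp
      rcases List.mem_cons.1 hp with rfl | hp
      · exact h1
      rcases List.mem_cons.1 hp with rfl | hp
      · exact h2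
      exact hne p hp
    have hmemthree : ∀ (a a' : F × F), a.1 ≠ 0 → a'.1 ≠ 0 → ∀ p ∈ a :: a' :: Q₀, p.1 ≠ 0 := by
      intro a a' h1 h2 p hp
      rcases List.mem_cons.1 hp with rfl | hp
      · exact h1
      rcases List.mem_cons.1 hp with rfl | hp
      · exact h2
      exact hne p (List.mem_cons_of_mem _ hp)
    have hsumne : j ≠ j' → c j + q₀.1 ≠ 0 := by
      intro hjj h0
      apply hinj j j' hj hj' hjj
      rw [hq₀] at h0
      linear_combination h0 - (c j') * h2F
    cases b <;> cases b'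
    · -- inverse, inverse
      refine ⟨(c j, (c j) ^ (θm + 1)), (c j, (c j) ^ (θm + 1)) :: q₀ :: Q₀, ε, rfl, hmemfour _ _ (hc0 j hj) (hc0 j hj), ?_, fun x => ?_⟩
      · simp only [List.length_cons] at hlen ⊢
        omega
      · rw [wordEval_cons, hform x, blockProd_cons hF x _ (_ :: q₀ :: Q₀), blockProd_cons hF x _ (q₀ :: Q₀)]
        simp only [cond_false]
        rw [letter_inv hF hm]
        simp only [mul_assoc, hsq']
    · -- inverse, generator: merge
      have hjj : j ≠ j' := by
        rcases hmerge with h | h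
        · exact h
        · exact absurd h (by simp)
      refine ⟨(c j, (c j) ^ (θm + 1)), pmul θm (c j, (c j) ^ (θm + 1)) q₀ :: Q₀, ε, rfl, hmemthree _ _ (hc0 j hj) (hsumne hjj), ?_, fun x => ?_⟩
      · simp only [List.length_cons] at hlen ⊢
        omega
      · rw [wordEval_cons, hform x]
        simp only [blockProd_cons, cond_false, cond_true, one_mul]
        rw [letter_inv hF hm, ← pS_mul hF hm]
        simp only [mul_assoc, hsq']
    · -- generator, inverse: merge
      have hjj : j ≠ j' := by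
        rcases hmerge with h | h
        · exact h
        · exact absurd h (by simp)
      refine ⟨(c j, 0), pmul θm (c j, 0) q₀ :: Q₀, ε, rfl, hmemthree _ _ (hc0 j hj) (hsumne hjj), ?_, fun x => ?_⟩
      · simp only [List.length_cons] at hlen ⊢
        omega
      · rw [wordEval_cons, hform x]
        simp only [blockProd_cons, cond_false, cond_true, one_mul]
        rw [← pS_mul hF hm]
        unfold letterS
        simp only [mul_assoc, hsq']
    · -- generator, generator
      refine ⟨(c j, 0), (c j, 0) :: q₀ :: Q₀, ε, rfl, hmemfour _ _ (hc0 j hj) (hc0 j hj), ?_, fun x => ?_⟩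
      · simp only [List.length_cons] at hlen ⊢
        omega
      · rw [wordEval_cons, hform x, blockProd_cons hF x _ (_ :: q₀ :: Q₀), blockProd_cons hF x _ (q₀ :: Q₀)]
        simp only [cond_true, one_mul]
        unfold letterS
        simp only [mul_assoc]

omit hm in
include hF in
lemma mhat_eval (x : F) (p : F × F) : (mhat θm p).map (Polynomial.evalRingHom x) = smat θm (p.1 * x) (p.2 * x ^ (θm + 1)) * suzukiForm F := by
  have C₀ := ctx_of_card (m := m) hF
  have hkey : (x ^ (θm + 1)) ^ θm = x ^ (θm + 2) := by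
    rw [pow_succ x θm, mul_pow, C₀.sq, pow_add x θm 2]
    ring
  ext i j
  fin_cases i <;> fin_cases j <;>
    simp [mhat, smat, suzukiForm, Matrix.mul_apply, Fin.sum_univ_four, fo, mul_pow]
  · rw [hkey]
    ring
  · ring

omit hm in
lemma block_coe (x : F) (Q : List (F × F)) :
    (((blockProd hF x Q : ↥(Sz F m)) : SL4) : Matrix (Fin 4) (Fin 4) F) = (phat θm Q).map (Polynomial.evalRingHom x) := by
  induction Q with
  | nil =>
    simp [blockProd, phat, Matrix.map_one]
  | cons p Q ih =>
    rw [blockProd_cons]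
    have e : phat θm (p :: Q) = mhat θm p * phat θm Q := by simp [phat]
    rw [e, Matrix.map_mul, mhat_eval hF, ← ih]
    rfl

omit hm in
lemma sT_entry : ((((sT hF : ↥(Sz F m)) : SL4) : Matrix (Fin 4) (Fin 4) F)) 0 0 = 0 := by
  show suzukiForm F 0 0 = 0
  simp [suzukiForm]

/-- For a word with a normal form, an evaluation which is not trivial. -/
theorem exists_nontrivial (c : ℕ → F) {L : List (ℕ × Bool)} {q : F × F} {Q : List (F × F)} {b ε : Bool} (hne : ∀ p ∈ q :: Q, p.1 ≠ 0)
    (hdeg : 2 * ((Q.length + 1) * (θm + 2)) < Fintype.card F)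
    (hform : ∀ x : F, wordEval hF c x L = cond b 1 (sT hF) * blockProd hF x (q :: Q) * cond ε (sT hF) 1) :
    ∃ x : F, wordEval hF c x L ≠ 1 := by
  classical
  have C₀ := ctx_of_card (m := m) hF
  have hfo : ∀ p ∈ q :: Q, fo θm p.1 p.2 ≠ 0 := by
    intro p hp h0
    exact hne p hp (fo_eq_zero C₀ h0 (by positivity)).1
  obtain ⟨h1, -⟩ := phat_deg θm (Nat.one_le_two_pow) q Q hfo
  set P := phat θm (q :: Q) 0 0 with hP
  have hPpos : 0 < P.natDegree := by
    rw [h1]
    positivity
  have hP0 : P ≠ 0 := by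
    intro h
    rw [h] at hPpos
    simp at hPpos
  have hP1 : P - 1 ≠ 0 := by
    intro h
    have : P = 1 := sub_eq_zero.1 h
    rw [this] at hPpos
    simp at hPpos
  have hg : P * (P - 1) ≠ 0 := mul_ne_zero hP0 hP1
  have hgdeg : (P * (P - 1)).natDegree < Fintype.card F := by
    refine lt_of_le_of_lt natDegree_mul_le ?_
    have h2 : (P - 1).natDegree ≤ P.natDegree := by
      refine (natDegree_sub_le _ _).trans ?_
      simp
    rw [h1] at h2 ⊢
    omega
  have hex : ∃ x : F, (P * (P - 1)).eval x ≠ 0 := by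
    by_contra hcon
    push Not at hcon
    exact hg (eq_zero_of_natDegree_lt_card_of_eval_eq_zero _ (f := id) Function.injective_id hcon hgdeg)
  obtain ⟨x, hx⟩ := hex
  refine ⟨x, fun h1' => hx ?_⟩
  have hsq := sT_sq hF hm
  have hT1 : (sT hF)⁻¹ = sT hF := sT_inv' hF hm
  have hent : (((blockProd hF x (q :: Q) : ↥(Sz F m)) : SL4) : Matrix (Fin 4) (Fin 4) F) 0 0 = P.eval x := by
    rw [block_coe]
    rfl
  have hcases : blockProd hF x (q :: Q) = 1 ∨ blockProd hF x (q :: Q) = sT hF := by
    rw [hform x] at h1'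
    cases b <;> cases ε <;> simp only [cond_true, cond_false, one_mul, mul_one] at h1'
    · -- T B = 1
      right
      rw [← hT1]
      exact eq_inv_of_mul_eq_one_right h1'
    · -- T B T = 1
      left
      have : blockProd hF x (q :: Q) = sT hF * (sT hF * blockProd hF x (q :: Q) * sT hF) * sT hF := by
        calc blockProd hF x (q :: Q) = (sT hF * sT hF) * blockProd hF x (q :: Q) * (sT hF * sT hF) := by
              rw [hsq]
              simp
          _ = _ := by group
      rw [this, h1', mul_one, hsq]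
    · left
      exact h1'
    · right
      rw [← hT1]
      exact eq_inv_of_mul_eq_one_left h1'
  rcases hcases with h | h
  · rw [h] at hent
    have e : P.eval x = 1 := by
      rw [← hent]
      simp
    simp [e]
  · rw [h, sT_entry] at hent
    simp [← hent]

end

/-- The main theorem on laws. -/
theorem law_main (w : FreeGroup ℕ) (hw : w ≠ 1) :
    ∃ N : ℕ, ∀ (F : Type*) [Field F] [Fintype F] (m : ℕ), 1 ≤ m → N ≤ m →
      Fintype.card F = 2 ^ (2 * m + 1) →
      ∃ f : ℕ → ↥(Cfsg.Lie.Sz F (2 ^ (m + 1))), FreeGroup.lift f w ≠ 1 := by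
  classical
  set L := w.toWord with hL
  have hLne : L ≠ [] := by
    intro h
    exact hw (FreeGroup.toWord_eq_nil_iff.1 h)
  refine ⟨L.length + 4, fun F _ _ m hm hN hF => ?_⟩
  set ℓ := L.length with hℓ
  set T₀ := 2 ^ m with hT₀
  have hT : 8 * ℓ + 1 ≤ T₀ := by
    have h1 : 2 ^ (ℓ + 4) ≤ T₀ := Nat.pow_le_pow_right (by norm_num) hN
    have h2 : ℓ + 1 ≤ 2 ^ ℓ := Nat.lt_two_pow_self
    have h3 : 2 ^ (ℓ + 4) = 16 * 2 ^ ℓ := by ring
    omega
  have hθ : 2 ^ (m + 1) = 2 * T₀ := by
    rw [hT₀]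
    ring
  have hq : Fintype.card F = 2 * T₀ * T₀ := by
    rw [hF, hT₀]
    ring
  -- the constants
  set S₀ := (L.map Prod.fst).toFinset with hS₀
  have hS₀card : S₀.card ≤ ℓ := by
    have := List.toFinset_card_le (L.map Prod.fst)
    simpa using this
  have hembed : Nonempty (↥S₀ ↪ Fˣ) := by
    apply Function.Embedding.nonempty_of_card_le
    rw [Fintype.card_coe, Fintype.card_units, hq]
    have : T₀ * 1 ≤ T₀ * T₀ := Nat.mul_le_mul_left _ (by omega)
    have h4 : 2 * T₀ * T₀ = 2 * (T₀ * T₀) := by ring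
    omega
  obtain ⟨emb⟩ := hembed
  let c : ℕ → F := fun i => if h : i ∈ S₀ then ((emb ⟨i, h⟩ : Fˣ) : F) else 1
  have hc0 : ∀ i, i ∈ S₀ → c i ≠ 0 := by
    intro i h
    simp only [c, dif_pos h]
    exact Units.ne_zero _
  have hinj : ∀ i j, i ∈ S₀ → j ∈ S₀ → i ≠ j → c i ≠ c j := by
    intro i j hi hj hij e
    simp only [c, dif_pos hi, dif_pos hj] at e
    have := emb.injective (Units.ext e)
    exact hij (congrArg Subtype.val this)
  -- the word
  obtain ⟨⟨j, b⟩, L', hLc⟩ : ∃ y L', L = y :: L' := List.exists_cons_of_ne_nil hLne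
  have hred : FreeGroup.IsReduced L := FreeGroup.isReduced_toWord
  rw [hLc] at hred
  have hmem : ∀ y ∈ L, y.1 ∈ S₀ := by
    intro y hy
    rw [hS₀, List.mem_toFinset]
    exact List.mem_map_of_mem hy
  obtain ⟨q, Q, ε, -, hne, hlen, hform⟩ := word_form hF hm c (fun i => i ∈ S₀) hc0 hinj L' j b (hmem _ (by rw [hLc]; exact List.mem_cons_self))
    (fun y hy => hmem y (by rw [hLc]; exact List.mem_cons_of_mem _ hy)) hred
  have hdeg : 2 * ((Q.length + 1) * (2 ^ (m + 1) + 2)) < Fintype.card F := by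
    have h1 : L'.length + 1 = ℓ := by
      rw [hℓ, hLc]
      rfl
    rw [h1] at hlen
    rw [hθ, hq]
    have hTpos : 1 ≤ T₀ := by omega
    calc 2 * ((Q.length + 1) * (2 * T₀ + 2)) ≤ 2 * ((2 * ℓ) * (2 * T₀ + 2)) := by
          apply Nat.mul_le_mul_left
          exact Nat.mul_le_mul_right _ hlen
      _ ≤ 2 * ((2 * ℓ) * (4 * T₀)) := by
          apply Nat.mul_le_mul_left
          apply Nat.mul_le_mul_left
          omega
      _ = 2 * (8 * ℓ) * T₀ := by ring
      _ < 2 * T₀ * T₀ := by
          apply Nat.mul_lt_mul_of_pos_right _ (by omega)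
          omega
  obtain ⟨x, hx⟩ := exists_nontrivial hF hm c hne hdeg hform
  set e := lieEquiv hF hm with he
  refine ⟨fun i => e (letterS hF c x i), fun h => hx ?_⟩
  have e1 : (e.toMonoidHom.comp (FreeGroup.lift (letterS hF c x))) = FreeGroup.lift (fun i => e (letterS hF c x i)) := by
    ext i
    simp
  have e2 : e (FreeGroup.lift (letterS hF c x) w) = 1 := by
    have := congrArg (fun φ => φ w) e1
    simp only [MonoidHom.comp_apply] at this
    exact this.trans h
  have e3 : FreeGroup.lift (letterS hF c x) w = 1 := by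
    apply e.injective
    rw [e2, map_one]
  have e4 : FreeGroup.lift (letterS hF c x) w = wordEval hF c x L := by
    conv_lhs => rw [← FreeGroup.mk_toWord (x := w)]
    rw [FreeGroup.lift_mk]
    rfl
  rw [← hLc, ← e4]
  exact e3

end CfsgLib.Sz
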