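/-
The solubilisers of two-elements of the Suzuki groups.
-/
import Cfsg.Agent.Lib.Sz.SolC

set_option autoImplicit false

namespace CfsgLib.Sz

open Matrix Cfsg
open scoped Pointwise

section

variable {F : Type*} [Field F] [Fintype F] {m : ℕ}

local notation "θm" => (2 ^ (m + 1) : ℕ)

local notation "∞'" => suzukiPointInfinity F

set_option quotPrecheck false in
local notation "GG" => ↥(Sz F m)

set_option quotPrecheck false in
local notation "OO" => ↥(suzukiOvoid F m)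

set_option quotPrecheck false in
local notation "D0" => Dp (ptInf : ↥(suzukiOvoid F m)) (ptP (0 : F) 0)

variable (hF : Fintype.card F = 2 ^ (2 * m + 1)) (hm : 1 ≤ m)

include hF hm

/-- The count for the dihedral family. -/
theorem YD_count {x : GG} {p : OO} (hx2 : orderOf x = 2) (hp : x • p = p) (huniq : ∀ p' : OO, x • p' = p' → p' = p) :
    Set.ncard {y : GG | y ∉ {y : GG | y • p = p} ∧ ∃ g : GG, g⁻¹ * x * g ∈ D0 ∧ g⁻¹ * y * g ∈ D0} * Nat.card D0 =
      nu D0 x * (2 * (Fintype.card F - 1) - 2) := by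
  classical
  haveI : Finite GG := finite_Sz
  have hab₀ : (ptInf : OO) ≠ ptP (0 : F) 0 := ptInf_ne hF hm 0 0
  apply Y_count
  · intro g hg
    set a := g • (ptInf : OO) with ha
    set b := g • (ptP (0 : F) 0 : OO) with hb
    have hab : a ≠ b := fun e => hab₀ (smul_left_cancel g e)
    have hxD : x ∈ Dp a b := (mem_conj_Dp g x _ _).1 hg
    have e : {y : GG | g⁻¹ * y * g ∈ D0 ∧ y ∉ {y : GG | y • p = p}} = (Dp a b : Set GG) \ {y : GG | y ∈ Dp a b ∧ y • p = p} := by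
      ext y
      simp only [Set.mem_ofPred_eq, Set.mem_sdiff, SetLike.mem_coe, mem_conj_Dp, not_and]
      constructor
      · rintro ⟨h1, h2⟩
        exact ⟨h1, fun _ h3 => h2 h3⟩
      · rintro ⟨h1, h2⟩
        exact ⟨h1, h2 h1⟩
    rw [e, Set.ncard_diff (fun y hy => hy.1) (Set.toFinite _), Dp_fix_card hF hm hab hxD hx2 hp huniq]
    congr 1
    rw [← Nat.card_coe_set_eq]
    exact (Dp_card_aux hF hm hab).2
  · intro g g' y h1 h2 h3 h4 hy
    by_contra hn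
    apply hy
    have hab : g • (ptInf : OO) ≠ g • ptP (0 : F) 0 := fun e => hab₀ (smul_left_cancel g e)
    have hcd : g' • (ptInf : OO) ≠ g' • ptP (0 : F) 0 := fun e => hab₀ (smul_left_cancel g' e)
    apply inter_fix hF hm huniq (Dp (g • (ptInf : OO)) (g • ptP (0 : F) 0) ⊓ Dp (g' • (ptInf : OO)) (g' • ptP (0 : F) 0))
      ⟨(mem_conj_Dp g x _ _).1 h1, (mem_conj_Dp g' x _ _).1 h3⟩ ?_ ⟨(mem_conj_Dp g y _ _).1 h2, (mem_conj_Dp g' y _ _).1 h4⟩
    intro z hz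
    by_contra hz4
    rcases core_DD hF hm hab hcd hz.1 hz.2 hz4 with ⟨hc, hd⟩ | ⟨hc, hd⟩
    · apply hn
      exact Or.inl ⟨by rw [mul_smul, hc, inv_smul_smul], by rw [mul_smul, hd, inv_smul_smul]⟩
    · apply hn
      exact Or.inr ⟨by rw [mul_smul, hc, inv_smul_smul], by rw [mul_smul, hd, inv_smul_smul]⟩

/-- The count for the family of normalisers of tori. -/
theorem YA_count {A₀ : Subgroup GG} (hA₀ : IsTorus A₀) {x : GG} {p : OO} (hx1 : x ≠ 1) (h4 : x ^ 4 = 1) (hp : x • p = p) (huniq : ∀ p' : OO, x • p' = p' → p' = p) :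
    Set.ncard {y : GG | y ∉ {y : GG | y • p = p} ∧ ∃ g : GG, g⁻¹ * x * g ∈ Subgroup.normalizer (A₀ : Set GG) ∧ g⁻¹ * y * g ∈ Subgroup.normalizer (A₀ : Set GG)} * Nat.card (Subgroup.normalizer (A₀ : Set GG)) =
      nu (Subgroup.normalizer (A₀ : Set GG)) x * (4 * Nat.card A₀ - 4) := by
  classical
  haveI : Finite GG := finite_Sz
  apply Y_count
  · intro g hg
    have hA := cT_torus g hA₀
    have hxN : x ∈ Subgroup.normalizer (cT g A₀ : Set GG) := mem_N_cT.1 hg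
    have e : {y : GG | g⁻¹ * y * g ∈ Subgroup.normalizer (A₀ : Set GG) ∧ y ∉ {y : GG | y • p = p}} = (Subgroup.normalizer (cT g A₀ : Set GG) : Set GG) \ {y : GG | y ∈ Subgroup.normalizer (cT g A₀ : Set GG) ∧ y • p = p} := by
      ext y
      simp only [Set.mem_ofPred_eq, Set.mem_sdiff, SetLike.mem_coe, mem_N_cT, not_and]
      constructor
      · rintro ⟨h1, h2⟩
        exact ⟨h1, fun _ h3 => h2 h3⟩
      · rintro ⟨h1, h2⟩
        exact ⟨h1, h2 h1⟩
    rw [e, Set.ncard_diff (fun y hy => hy.1) (Set.toFinite _), torus_fix_card hF hm hA hxN hx1 h4 hp huniq]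
    congr 1
    rw [← Nat.card_coe_set_eq, ← card_cT g A₀]
    exact torus_four hF hm hA
  · intro g g' y h1 h2 h3 h4' hy
    by_contra hn
    apply hy
    have hA := cT_torus g hA₀
    have hA' := cT_torus g' hA₀
    apply inter_fix hF hm huniq (Subgroup.normalizer (cT g A₀ : Set GG) ⊓ Subgroup.normalizer (cT g' A₀ : Set GG))
      ⟨mem_N_cT.1 h1, mem_N_cT.1 h3⟩ ?_ ⟨mem_N_cT.1 h2, mem_N_cT.1 h4'⟩
    intro z hz
    by_contra hz4
    have hEq := core_AA hF hm hA hA' hz.1 hz.2 hz4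
    apply hn
    rw [Subgroup.mem_normalizer_iff]
    intro u
    have e1 : u ∈ A₀ ↔ g' * u * g'⁻¹ ∈ cT g' A₀ := by
      rw [mem_cT]
      have e : g'⁻¹ * (g' * u * g'⁻¹) * g' = u := by group
      rw [e]
    rw [e1, ← hEq, mem_cT]
    have e : g⁻¹ * (g' * u * g'⁻¹) * g = g⁻¹ * g' * u * (g⁻¹ * g')⁻¹ := by group
    rw [e]

/-- Tori of both orders. -/
lemma exists_two_tori : ∃ A₁ A₂ : Subgroup GG, IsTorus A₁ ∧ IsTorus A₂ ∧ Nat.card A₁ = 2 ^ (2 * m + 1) + 2 ^ (m + 1) + 1 ∧ Nat.card A₂ = 2 ^ (2 * m + 1) - 2 ^ (m + 1) + 1 := by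
  obtain ⟨U₁, -, h1, hC1, -⟩ := exceptional hF hm (2 ^ (2 * m + 1) + 2 ^ (m + 1) + 1) (Or.inl rfl)
  obtain ⟨U₂, -, h2, hC2, -⟩ := exceptional hF hm (2 ^ (2 * m + 1) - 2 ^ (m + 1) + 1) (Or.inr rfl)
  have hprod := list_prod hm
  have hr2 : 2 ≤ 2 ^ m := by
    calc 2 = 2 ^ 1 := by norm_num
      _ ≤ 2 ^ m := Nat.pow_le_pow_right (by norm_num) hm
  have hq : 2 ^ (2 * m + 1) = 2 * (2 ^ m) ^ 2 := by
    ring
  have h2r : 2 ^ (m + 1) = 2 * 2 ^ m := by
    ring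
  have hle : 2 * 2 ^ m + 2 ≤ 2 * (2 ^ m) ^ 2 := by nlinarith
  have hT1 : IsTorus U₁ := torus_of_exc hF hm (by rw [h1, hF, ← hprod]; exact dvd_mul_right _ _)
    (by rw [h1]; omega) hC1
  have hT2 : IsTorus U₂ := torus_of_exc hF hm (by rw [h2, hF, ← hprod]; exact dvd_mul_left _ _)
    (by rw [h2]; omega) hC2
  exact ⟨U₁, U₂, hT1, hT2, h1, h2⟩

/-- The shape of the solubiliser of a two-element. -/
theorem sol_two_card {x : GG} {p : OO} (hx1 : x ≠ 1) (h4 : x ^ 4 = 1) (hp : x • p = p) (huniq : ∀ p' : OO, x • p' = p' → p' = p)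
    {A₁ A₂ : Subgroup GG} (hA₁ : IsTorus A₁) (hA₂ : IsTorus A₂) (hc₁ : Nat.card A₁ = 2 ^ (2 * m + 1) + 2 ^ (m + 1) + 1) (hc₂ : Nat.card A₂ = 2 ^ (2 * m + 1) - 2 ^ (m + 1) + 1) :
    Nat.card {y : GG // Group.IsSolvable (Subgroup.closure ({x, y} : Set GG))} =
      {y : GG | y • p = p}.ncard +
      Set.ncard {y : GG | y ∉ {y : GG | y • p = p} ∧ ∃ g : GG, g⁻¹ * x * g ∈ D0 ∧ g⁻¹ * y * g ∈ D0} +
      Set.ncard {y : GG | y ∉ {y : GG | y • p = p} ∧ ∃ g : GG, g⁻¹ * x * g ∈ Subgroup.normalizer (A₁ : Set GG) ∧ g⁻¹ * y * g ∈ Subgroup.normalizer (A₁ : Set GG)} +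
      Set.ncard {y : GG | y ∉ {y : GG | y • p = p} ∧ ∃ g : GG, g⁻¹ * x * g ∈ Subgroup.normalizer (A₂ : Set GG) ∧ g⁻¹ * y * g ∈ Subgroup.normalizer (A₂ : Set GG)} := by
  classical
  haveI : Finite GG := finite_Sz
  set B : Set GG := {y : GG | y • p = p} with hB
  set YD : Set GG := {y : GG | y ∉ B ∧ ∃ g : GG, g⁻¹ * x * g ∈ D0 ∧ g⁻¹ * y * g ∈ D0} with hYD
  set Y₁ : Set GG := {y : GG | y ∉ B ∧ ∃ g : GG, g⁻¹ * x * g ∈ Subgroup.normalizer (A₁ : Set GG) ∧ g⁻¹ * y * g ∈ Subgroup.normalizer (A₁ : Set GG)} with hY₁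
  set Y₂ : Set GG := {y : GG | y ∉ B ∧ ∃ g : GG, g⁻¹ * x * g ∈ Subgroup.normalizer (A₂ : Set GG) ∧ g⁻¹ * y * g ∈ Subgroup.normalizer (A₂ : Set GG)} with hY₂
  have hne12 : Nat.card A₁ ≠ Nat.card A₂ := by
    rw [hc₁, hc₂]
    have h1 : 0 < 2 ^ (m + 1) := by positivity
    omega
  have hset : {y : GG | Group.IsSolvable (Subgroup.closure ({x, y} : Set GG))} = ((B ∪ YD) ∪ Y₁) ∪ Y₂ := by
    ext y
    simp only [Set.mem_ofPred_eq, Set.mem_union]
    rw [sol_iff hF hm hx1]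
    constructor
    · intro h
      by_cases hyB : y ∈ B
      · exact Or.inl (Or.inl (Or.inl hyB))
      rcases h with ⟨p', h1, h2⟩ | ⟨a, b, hab, h1, h2⟩ | ⟨A, hA, h1, h2⟩
      · rw [huniq p' h1] at h2
        exact absurd h2 hyB
      · obtain ⟨g, hg1, hg2⟩ := two_trans hF hm (ptInf_ne hF hm (0 : F) 0) hab
        refine Or.inl (Or.inl (Or.inr ⟨hyB, g, ?_, ?_⟩))
        · rw [mem_conj_Dp, hg1, hg2]
          exact h1
        · rw [mem_conj_Dp, hg1, hg2]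
          exact h2
      · rcases torus_card_cases hF hm hA with h | h
        · obtain ⟨g, rfl⟩ := torus_conj_of_card hF hm hA₁ hA (hc₁.trans h.symm)
          exact Or.inl (Or.inr ⟨hyB, g, mem_N_cT.2 h1, mem_N_cT.2 h2⟩)
        · obtain ⟨g, rfl⟩ := torus_conj_of_card hF hm hA₂ hA (hc₂.trans h.symm)
          exact Or.inr ⟨hyB, g, mem_N_cT.2 h1, mem_N_cT.2 h2⟩
    · rintro (((h | ⟨-, g, h1, h2⟩) | ⟨-, g, h1, h2⟩) | ⟨-, g, h1, h2⟩)
      · exact Or.inl ⟨p, hp, h⟩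
      · refine Or.inr (Or.inl ⟨_, _, fun e => ptInf_ne hF hm (0 : F) 0 (smul_left_cancel g e), (mem_conj_Dp g x _ _).1 h1, (mem_conj_Dp g y _ _).1 h2⟩)
      · exact Or.inr (Or.inr ⟨_, cT_torus g hA₁, mem_N_cT.1 h1, mem_N_cT.1 h2⟩)
      · exact Or.inr (Or.inr ⟨_, cT_torus g hA₂, mem_N_cT.1 h1, mem_N_cT.1 h2⟩)
  have hd1 : Disjoint B YD := by
    rw [Set.disjoint_left]
    rintro y hy ⟨h, -⟩
    exact h hy
  have hd2 : Disjoint (B ∪ YD) Y₁ := by
    rw [Set.disjoint_left]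
    rintro y (hy | ⟨hy0, g, h1, h2⟩) ⟨h, g', h3, h4'⟩
    · exact h hy
    · apply hy0
      have hA := cT_torus g' hA₁
      apply inter_fix hF hm huniq (Dp (g • (ptInf : OO)) (g • ptP (0 : F) 0) ⊓ Subgroup.normalizer (cT g' A₁ : Set GG))
        ⟨(mem_conj_Dp g x _ _).1 h1, mem_N_cT.1 h3⟩ ?_ ⟨(mem_conj_Dp g y _ _).1 h2, mem_N_cT.1 h4'⟩
      intro z hz
      exact core_DA hF hm hA hz.1 hz.2
  have hd3 : Disjoint ((B ∪ YD) ∪ Y₁) Y₂ := by
    rw [Set.disjoint_left]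
    rintro y ((hy | ⟨hy0, g, h1, h2⟩) | ⟨hy0, g, h1, h2⟩) ⟨h, g', h3, h4'⟩
    · exact h hy
    · apply hy0
      have hA := cT_torus g' hA₂
      apply inter_fix hF hm huniq (Dp (g • (ptInf : OO)) (g • ptP (0 : F) 0) ⊓ Subgroup.normalizer (cT g' A₂ : Set GG))
        ⟨(mem_conj_Dp g x _ _).1 h1, mem_N_cT.1 h3⟩ ?_ ⟨(mem_conj_Dp g y _ _).1 h2, mem_N_cT.1 h4'⟩
      intro z hz
      exact core_DA hF hm hA hz.1 hz.2
    · apply hy0
      have hA := cT_torus g hA₁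
      have hA' := cT_torus g' hA₂
      apply inter_fix hF hm huniq (Subgroup.normalizer (cT g A₁ : Set GG) ⊓ Subgroup.normalizer (cT g' A₂ : Set GG))
        ⟨mem_N_cT.1 h1, mem_N_cT.1 h3⟩ ?_ ⟨mem_N_cT.1 h2, mem_N_cT.1 h4'⟩
      intro z hz
      by_contra hz4
      have hEq := core_AA hF hm hA hA' hz.1 hz.2 hz4
      apply hne12
      rw [← card_cT g A₁, ← card_cT g' A₂, hEq]
  have hfin : ∀ s : Set GG, s.Finite := fun s => s.toFinite
  show Nat.card ↥{y : GG | Group.IsSolvable (Subgroup.closure ({x, y} : Set GG))} = _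
  rw [Nat.card_coe_set_eq, hset, Set.ncard_union_eq hd3 (hfin _) (hfin _), Set.ncard_union_eq hd2 (hfin _) (hfin _), Set.ncard_union_eq hd1 (hfin _) (hfin _)]

lemma inv_nu_const (M : Subgroup GG) {x u : GG} (hx : orderOf x = 2) (hu : orderOf u = 2) : nu M u = nu M x := by
  haveI : Finite GG := finite_Sz
  obtain ⟨h₁, rfl⟩ := invol_conj hF hm hx
  obtain ⟨h₂, rfl⟩ := invol_conj hF hm hu
  rw [nu_conj, nu_conj]

lemma ord4_nu_const (M : Subgroup GG) {x u : GG} (hx : orderOf x = 4) (hu : orderOf u = 4) : nu M u = nu M x := by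
  haveI : Finite GG := finite_Sz
  have key : ∀ {w : GG}, orderOf w = 4 → nu M w = nu M (sS hF (1 : F) 0) := by
    intro w hw
    obtain ⟨h, rfl | rfl⟩ := ord4_conj hF hm hw
    · rw [nu_conj]
    · rw [nu_conj, nu_inv]
  rw [key hx, key hu]


/-- The count for involutions. -/
theorem sol_card_inv {x : GG} (hx2 : orderOf x = 2) :
    Nat.card {y : GG // Group.IsSolvable (Subgroup.closure ({x, y} : Set GG))} = (2 ^ (2 * m + 1)) ^ 2 * (4 * 2 ^ (2 * m + 1) - 3) := by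
  classical
  haveI : Finite GG := finite_Sz
  have hx1 : x ≠ 1 := by
    rintro rfl
    rw [orderOf_one] at hx2
    omega
  have h4 : x ^ 4 = 1 := orderOf_dvd_iff_pow_eq_one.1 (by rw [hx2]; norm_num)
  obtain ⟨p, hp, huniq⟩ := two_elem_fix hF hm hx1 h4
  obtain ⟨A₁, A₂, hA₁, hA₂, hc₁, hc₂⟩ := exists_two_tori hF hm
  rw [sol_two_card hF hm hx1 h4 hp huniq hA₁ hA₂ hc₁ hc₂, ← hF]
  set q := Fintype.card F with hq
  have hq8 : 8 ≤ q := by
    rw [hF]
    calc 8 = 2 ^ 3 := by norm_num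
      _ ≤ 2 ^ (2 * m + 1) := Nat.pow_le_pow_right (by norm_num) (by omega)
  have hG : Nat.card GG = q ^ 2 * ((q ^ 2 + 1) * (q - 1)) := by
    rw [card_Sz hF hm, hF]
    ring
  have hS : 0 < (q ^ 2 + 1) * (q - 1) := Nat.mul_pos (by positivity) (by omega)
  have hInv := card_inv hF hm
  rw [← hq] at hInv
  have hconjS : ∀ (u h : GG), u ∈ {u : GG | orderOf u = 2} → h * u * h⁻¹ ∈ {u : GG | orderOf u = 2} := by
    intro u h hu
    show orderOf (h * u * h⁻¹) = 2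
    rw [order_conj hF hm]
    exact hu
  -- the general form of the counts
  have hab₀ : (ptInf : OO) ≠ ptP (0 : F) 0 := ptInf_ne hF hm 0 0
  -- dihedral
  obtain ⟨hD1, hD2⟩ := Dp_card_aux hF hm hab₀
  rw [← hq] at hD1 hD2
  have hnD : nu D0 x = q ^ 2 * (q - 1) := by
    have h := nu_sum D0 {u : GG | orderOf u = 2} hconjS (nu D0 x) (fun u hu => inv_nu_const hF hm D0 hx2 hu)
    rw [hInv, hD1, hG] at h
    apply Nat.eq_of_mul_eq_mul_right hS
    rw [h]
    ring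
  have hyD := YD_count hF hm hx2 hp huniq
  rw [hD2, hnD, ← hq] at hyD
  have hyD' : Set.ncard {y : GG | y ∉ {y : GG | y • p = p} ∧ ∃ g : GG, g⁻¹ * x * g ∈ D0 ∧ g⁻¹ * y * g ∈ D0} = q ^ 2 * (q - 2) := by
    have e : 2 * (q - 1) - 2 = 2 * (q - 2) := by omega
    rw [e] at hyD
    have hpos : 0 < 2 * (q - 1) := by omega
    apply Nat.eq_of_mul_eq_mul_right hpos
    rw [hyD]
    ring
  -- tori
  have hAcount : ∀ {A : Subgroup GG}, IsTorus A → Set.ncard {y : GG | y ∉ {y : GG | y • p = p} ∧ ∃ g : GG, g⁻¹ * x * g ∈ Subgroup.normalizer (A : Set GG) ∧ g⁻¹ * y * g ∈ Subgroup.normalizer (A : Set GG)} = q ^ 2 * (Nat.card A - 1) := by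
    intro A hA
    have hk : 0 < Nat.card A := Nat.card_pos
    have hn : nu (Subgroup.normalizer (A : Set GG)) x = q ^ 2 * Nat.card A := by
      have h := nu_sum (Subgroup.normalizer (A : Set GG)) {u : GG | orderOf u = 2} hconjS (nu (Subgroup.normalizer (A : Set GG)) x) (fun u hu => inv_nu_const hF hm _ hx2 hu)
      rw [hInv, torus_inv_set hF hm hA, hG] at h
      apply Nat.eq_of_mul_eq_mul_right hS
      rw [h]
      ring
    have hy := YA_count hF hm hA hx1 h4 hp huniq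
    rw [torus_four hF hm hA, hn] at hy
    have e : 4 * Nat.card A - 4 = 4 * (Nat.card A - 1) := by omega
    rw [e] at hy
    have hpos : 0 < 4 * Nat.card A := by omega
    apply Nat.eq_of_mul_eq_mul_right hpos
    rw [hy]
    ring
  rw [hyD', hAcount hA₁, hAcount hA₂, hc₁, hc₂]
  have hB : {y : GG | y • p = p}.ncard = q ^ 2 * (q - 1) := by
    rw [hq, ← card_stab_eq hF hm p, ← Nat.card_coe_set_eq]
    rfl
  rw [hB, ← mul_add, ← mul_add, ← mul_add]
  congr 1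
  have hle : 2 ^ (m + 1) ≤ q := by
    rw [hF]
    exact Nat.pow_le_pow_right (by norm_num) (by omega)
  omega

/-- The count for elements of order four. -/
theorem sol_card_ord4 {x : GG} (hx4 : orderOf x = 4) :
    Nat.card {y : GG // Group.IsSolvable (Subgroup.closure ({x, y} : Set GG))} = (2 ^ (2 * m + 1)) ^ 2 * (2 ^ (2 * m + 1) + 3) := by
  classical
  haveI : Finite GG := finite_Sz
  have hx1 : x ≠ 1 := by
    rintro rfl
    rw [orderOf_one] at hx4
    omega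
  have h4 : x ^ 4 = 1 := orderOf_dvd_iff_pow_eq_one.1 (by rw [hx4])
  obtain ⟨p, hp, huniq⟩ := two_elem_fix hF hm hx1 h4
  obtain ⟨A₁, A₂, hA₁, hA₂, hc₁, hc₂⟩ := exists_two_tori hF hm
  rw [sol_two_card hF hm hx1 h4 hp huniq hA₁ hA₂ hc₁ hc₂, ← hF]
  set q := Fintype.card F with hq
  have hq8 : 8 ≤ q := by
    rw [hF]
    calc 8 = 2 ^ 3 := by norm_num
      _ ≤ 2 ^ (2 * m + 1) := Nat.pow_le_pow_right (by norm_num) (by omega)
  have hG : Nat.card GG = q * ((q ^ 2 + 1) * ((q - 1) * q)) := by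
    rw [card_Sz hF hm, hF]
    ring
  have hS : 0 < (q ^ 2 + 1) * ((q - 1) * q) := Nat.mul_pos (by positivity) (Nat.mul_pos (by omega) (by omega))
  have hOrd := card_ord4 hF hm
  rw [← hq] at hOrd
  have hconjS : ∀ (u h : GG), u ∈ {u : GG | orderOf u = 4} → h * u * h⁻¹ ∈ {u : GG | orderOf u = 4} := by
    intro u h hu
    show orderOf (h * u * h⁻¹) = 4
    rw [order_conj hF hm]
    exact hu
  -- no dihedral subgroup contains an element of order four
  have hab₀ : (ptInf : OO) ≠ ptP (0 : F) 0 := ptInf_ne hF hm 0 0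
  have hyD' : Set.ncard {y : GG | y ∉ {y : GG | y • p = p} ∧ ∃ g : GG, g⁻¹ * x * g ∈ D0 ∧ g⁻¹ * y * g ∈ D0} = 0 := by
    have e : {y : GG | y ∉ {y : GG | y • p = p} ∧ ∃ g : GG, g⁻¹ * x * g ∈ D0 ∧ g⁻¹ * y * g ∈ D0} = ∅ := by
      ext y
      simp only [Set.mem_ofPred_eq, Set.mem_empty_iff_false, iff_false, not_and]
      rintro - ⟨g, h1, -⟩
      have hab : g • (ptInf : OO) ≠ g • ptP (0 : F) 0 := fun e => hab₀ (smul_left_cancel g e)
      have h2 := (mem_conj_Dp g x _ _).1 h1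
      by_cases h3 : x ∈ Tp (g • (ptInf : OO)) (g • ptP (0 : F) 0)
      · have h5 := Tp_odd hF hm hab h3
        rw [hx4] at h5
        exact absurd h5 (by decide)
      · have h5 := Dp_swap_order hF hm hab h2 h3
        rw [hx4] at h5
        omega
    rw [e, Set.ncard_empty]
  -- tori
  have hAcount : ∀ {A : Subgroup GG}, IsTorus A → Set.ncard {y : GG | y ∉ {y : GG | y • p = p} ∧ ∃ g : GG, g⁻¹ * x * g ∈ Subgroup.normalizer (A : Set GG) ∧ g⁻¹ * y * g ∈ Subgroup.normalizer (A : Set GG)} = 2 * q * (Nat.card A - 1) := by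
    intro A hA
    have hk : 0 < Nat.card A := Nat.card_pos
    have hn : nu (Subgroup.normalizer (A : Set GG)) x = q * (2 * Nat.card A) := by
      have h := nu_sum (Subgroup.normalizer (A : Set GG)) {u : GG | orderOf u = 4} hconjS (nu (Subgroup.normalizer (A : Set GG)) x) (fun u hu => ord4_nu_const hF hm _ hx4 hu)
      rw [hOrd, torus_ord4_set hF hm hA, hG] at h
      apply Nat.eq_of_mul_eq_mul_right hS
      rw [h]
      ring
    have hy := YA_count hF hm hA hx1 h4 hp huniq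
    rw [torus_four hF hm hA, hn] at hy
    have e : 4 * Nat.card A - 4 = 4 * (Nat.card A - 1) := by omega
    rw [e] at hy
    have hpos : 0 < 4 * Nat.card A := by omega
    apply Nat.eq_of_mul_eq_mul_right hpos
    rw [hy]
    ring
  rw [hyD', hAcount hA₁, hAcount hA₂, hc₁, hc₂]
  have hB : {y : GG | y • p = p}.ncard = q ^ 2 * (q - 1) := by
    rw [hq, ← card_stab_eq hF hm p, ← Nat.card_coe_set_eq]
    rfl
  rw [hB, add_zero, add_assoc, ← mul_add, ← hF]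
  have hle : 2 ^ (m + 1) ≤ q := by
    rw [hF]
    exact Nat.pow_le_pow_right (by norm_num) (by omega)
  have e : q + 2 ^ (m + 1) + 1 - 1 + (q - 2 ^ (m + 1) + 1 - 1) = 2 * q := by omega
  rw [e]
  obtain ⟨t, ht⟩ : ∃ t, q = t + 1 := ⟨q - 1, by omega⟩
  rw [ht]
  simp only [Nat.add_sub_cancel]
  ring

end

/-- The size of the solubiliser is preserved by isomorphisms. -/
theorem sol_card_transfer {G G' : Type*} [Group G] [Group G'] (e : G ≃* G') (x : G) :
    Nat.card {y' : G' // Group.IsSolvable (Subgroup.closure ({e x, y'} : Set G'))} = Nat.card {y : G // Group.IsSolvable (Subgroup.closure ({x, y} : Set G))} := by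
  have key : ∀ y : G, Group.IsSolvable (Subgroup.closure ({e x, e y} : Set G')) ↔ Group.IsSolvable (Subgroup.closure ({x, y} : Set G)) := by
    intro y
    have h1 : Subgroup.closure ({e x, e y} : Set G') = (Subgroup.closure ({x, y} : Set G)).map (e : G →* G') := by
      rw [MonoidHom.map_closure, Set.image_pair]
      rfl
    rw [h1]
    let f := Subgroup.equivMapOfInjective (Subgroup.closure ({x, y} : Set G)) (e : G →* G') e.injective
    constructor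
    · intro h
      exact Group.isSolvable_of_surjective (f := f.symm.toMonoidHom) f.symm.surjective
    · intro h
      exact Group.isSolvable_of_surjective (f := f.toMonoidHom) f.surjective
  symm
  refine Nat.card_congr (Equiv.subtypeEquiv e.toEquiv ?_)
  intro y
  exact (key y).symm

section

variable {F : Type*} [Field F] [Fintype F] {m : ℕ}

/-- The solubilisers of the Suzuki groups. -/
theorem solub_main (hm : 1 ≤ m) (hF : Fintype.card F = 2 ^ (2 * m + 1)) (x : ↥(Cfsg.Lie.Sz F (2 ^ (m + 1)))) :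
    (orderOf x = 2 → Nat.card {y : ↥(Cfsg.Lie.Sz F (2 ^ (m + 1))) // Group.IsSolvable ↥(Subgroup.closure ({x, y} : Set (↥(Cfsg.Lie.Sz F (2 ^ (m + 1))))))} = (2 ^ (2 * m + 1)) ^ 2 * (4 * 2 ^ (2 * m + 1) - 3)) ∧
    (orderOf x = 4 → Nat.card {y : ↥(Cfsg.Lie.Sz F (2 ^ (m + 1))) // Group.IsSolvable ↥(Subgroup.closure ({x, y} : Set (↥(Cfsg.Lie.Sz F (2 ^ (m + 1))))))} = (2 ^ (2 * m + 1)) ^ 2 * (2 ^ (2 * m + 1) + 3)) ∧
    (x ≠ 1 → orderOf x ∣ 2 ^ (2 * m + 1) - 1 →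
      Nat.card {y : ↥(Cfsg.Lie.Sz F (2 ^ (m + 1))) // Group.IsSolvable ↥(Subgroup.closure ({x, y} : Set (↥(Cfsg.Lie.Sz F (2 ^ (m + 1))))))} = 2 * (2 ^ (2 * m + 1)) ^ 2 * (2 ^ (2 * m + 1) - 1)) ∧
    (x ≠ 1 → orderOf x ∣ 2 ^ (2 * m + 1) + 2 ^ (m + 1) + 1 → Nat.card {y : ↥(Cfsg.Lie.Sz F (2 ^ (m + 1))) // Group.IsSolvable ↥(Subgroup.closure ({x, y} : Set (↥(Cfsg.Lie.Sz F (2 ^ (m + 1))))))} = 4 * (2 ^ (2 * m + 1) + 2 ^ (m + 1) + 1)) ∧
    (x ≠ 1 → orderOf x ∣ 2 ^ (2 * m + 1) - 2 ^ (m + 1) + 1 → Nat.card {y : ↥(Cfsg.Lie.Sz F (2 ^ (m + 1))) // Group.IsSolvable ↥(Subgroup.closure ({x, y} : Set (↥(Cfsg.Lie.Sz F (2 ^ (m + 1))))))} = 4 * (2 ^ (2 * m + 1) - 2 ^ (m + 1) + 1)) := by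
  set e := lieEquiv hF hm with he
  obtain ⟨x₀, rfl⟩ := e.surjective x
  have ho : orderOf (e x₀) = orderOf x₀ := e.orderOf_eq x₀
  have hne : e x₀ ≠ 1 → x₀ ≠ 1 := by
    rintro h rfl
    exact h (map_one e)
  rw [ho]
  refine ⟨fun h => ?_, fun h => ?_, fun h1 h2 => ?_, fun h1 h2 => ?_, fun h1 h2 => ?_⟩
  · rw [sol_card_transfer e x₀]
    exact sol_card_inv hF hm h
  · rw [sol_card_transfer e x₀]
    exact sol_card_ord4 hF hm h
  · rw [sol_card_transfer e x₀]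
    exact sol_card_split hF hm (hne h1) h2
  · rw [sol_card_transfer e x₀]
    exact sol_card_fpf hF hm (hne h1) (Or.inl rfl) h2
  · rw [sol_card_transfer e x₀]
    exact sol_card_fpf hF hm (hne h1) (Or.inr rfl) h2

end

end CfsgLib.Sz
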