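/-
Subfield subgroups of the Suzuki groups.
-/
import Cfsg.Agent.Lib.Sz.Aut2
import Cfsg.Agent.Lib.Sz.PrimeGraph

set_option autoImplicit false

namespace CfsgLib.Sz

open Matrix Cfsg
open scoped Pointwise

section

variable {F K : Type*} [Field F] [Fintype F] [Field K] [Fintype K] {m k : ℕ}

local notation "θm" => (2 ^ (m + 1) : ℕ)

local notation "θk" => (2 ^ (k + 1) : ℕ)

local notation "∞'" => suzukiPointInfinity F

variable (hF : Fintype.card F = 2 ^ (2 * m + 1)) (hm : 1 ≤ m) (hK : Fintype.card K = 2 ^ (2 * k + 1)) (hk : 1 ≤ k) (hdiv : 2 * k + 1 ∣ 2 * m + 1) (ι : K →+* F)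

include hK hdiv in
omit [Fintype F] [Field F] in
/-- On the small field the two exponents agree. -/
lemma pow_compat (a : K) : a ^ (2 ^ m) = a ^ (2 ^ k) := by
  obtain ⟨d, hd⟩ := hdiv
  obtain ⟨e, rfl⟩ : ∃ e, d = 2 * e + 1 := by
    have : Odd d := (Nat.odd_mul.1 (hd ▸ odd_two_mul_add_one m)).2
    obtain ⟨e, he⟩ := this
    exact ⟨e, he⟩
  have hm' : m = (2 * k + 1) * e + k := by
    have : 2 * m + 1 = 2 * ((2 * k + 1) * e + k) + 1 := by
      rw [hd]
      ring
    omega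
  have hit : ∀ n : ℕ, a ^ (2 ^ ((2 * k + 1) * n)) = a := by
    intro n
    induction n with
    | zero => simp
    | succ n ih =>
      rw [show (2 * k + 1) * (n + 1) = (2 * k + 1) * n + (2 * k + 1) by ring, pow_add, pow_mul, ih, ← hK]
      exact FiniteField.pow_card a
  rw [hm', pow_add, pow_mul, hit]

include hK hdiv in
lemma iota_theta (a : K) : (ι a) ^ θm = ι (a ^ θk) := by
  rw [pow_succ 2 k, pow_mul, ← pow_compat hK hdiv, map_pow, map_pow, ← pow_mul, ← pow_succ]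

include hK hdiv in
lemma iota_r (a : K) : (ι a) ^ (2 ^ m) = ι (a ^ (2 ^ k)) := by
  rw [← pow_compat hK hdiv, map_pow]

include hK hdiv in
lemma map_Sk (a b : K) : Matrix.SpecialLinearGroup.map ι (S θk a b) = S θm (ι a) (ι b) := by
  apply Subtype.ext
  rw [Matrix.SpecialLinearGroup.map_apply_coe]
  have h1 := iota_theta hK hdiv ι a
  have h2 := iota_theta hK hdiv ι b
  generalize (2 ^ (k + 1) : ℕ) = θ₁ at *
  generalize (2 ^ (m + 1) : ℕ) = θ₂ at *
  ext i j
  fin_cases i <;> fin_cases j <;> simp [S, smat, pow_add, h1, h2]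

include hK hdiv in
lemma map_Mk (α : Kˣ) : Matrix.SpecialLinearGroup.map ι (M (2 ^ k) α) = M (2 ^ m) (Units.map (ι : K →* F) α) := by
  apply Subtype.ext
  rw [Matrix.SpecialLinearGroup.map_apply_coe]
  have h1 := iota_r hK hdiv ι (α : K)
  have h2 := iota_r hK hdiv ι ((α⁻¹ : Kˣ) : K)
  simp only [Units.val_inv_eq_inv_val, map_inv₀] at h2
  ext i j
  fin_cases i <;> fin_cases j <;> simp [M, mmat, pow_add, h1, h2]

lemma map_Tk : Matrix.SpecialLinearGroup.map ι (T K) = T F := by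
  apply Subtype.ext
  rw [Matrix.SpecialLinearGroup.map_apply_coe]
  ext i j
  fin_cases i <;> fin_cases j <;> simp [T, suzukiForm]

include hF hm hK hk hdiv

lemma stdEmb_mem (g : ↥(Sz K k)) : Matrix.SpecialLinearGroup.map ι (g : Matrix.SpecialLinearGroup (Fin 4) K) ∈ Sz F m := by
  have hstab : ∀ g : ↥(Sz K k), ((g : Matrix.SpecialLinearGroup (Fin 4) K) • suzukiPointInfinity K = suzukiPointInfinity K) → Matrix.SpecialLinearGroup.map ι (g : Matrix.SpecialLinearGroup (Fin 4) K) ∈ Sz F m := by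
    intro g hg
    obtain ⟨a, b, α, rfl⟩ := stab_cases hK hk g hg
    rw [Subgroup.coe_mul, map_mul]
    exact Subgroup.mul_mem _ (by rw [show ((sS hK a b : ↥(Sz K k)) : Matrix.SpecialLinearGroup (Fin 4) K) = S θk a b from rfl, map_Sk hK hdiv]; exact S_mem hF _ _)
      (by rw [show ((sM hK α : ↥(Sz K k)) : Matrix.SpecialLinearGroup (Fin 4) K) = M (2 ^ k) α from rfl, map_Mk hK hdiv]; exact M_mem hF _)
  rcases bruhat_cases hK hk g with h | ⟨x, y, b, hb, rfl⟩
  · exact hstab g h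
  · rw [Subgroup.coe_mul, Subgroup.coe_mul, map_mul, map_mul]
    refine Subgroup.mul_mem _ (Subgroup.mul_mem _ ?_ ?_) (hstab b hb)
    · rw [show ((sS hK x y : ↥(Sz K k)) : Matrix.SpecialLinearGroup (Fin 4) K) = S θk x y from rfl, map_Sk hK hdiv]
      exact S_mem hF _ _
    · rw [show ((sT hK : ↥(Sz K k)) : Matrix.SpecialLinearGroup (Fin 4) K) = T K from rfl, map_Tk]
      exact T_mem hF

/-- The standard embedding. -/
noncomputable def stdEmb : ↥(Sz K k) →* ↥(Sz F m) where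
  toFun g := ⟨Matrix.SpecialLinearGroup.map ι (g : Matrix.SpecialLinearGroup (Fin 4) K), stdEmb_mem hF hm hK hk hdiv ι g⟩
  map_one' := by
    apply Subtype.ext
    simp
  map_mul' g h := by
    apply Subtype.ext
    simp

lemma stdEmb_S (a b : K) : stdEmb hF hm hK hk hdiv ι (sS hK a b) = sS hF (ι a) (ι b) :=
  Subtype.ext (map_Sk hK hdiv ι a b)

lemma stdEmb_M (α : Kˣ) : stdEmb hF hm hK hk hdiv ι (sM hK α) = sM hF (Units.map (ι : K →* F) α) :=
  Subtype.ext (map_Mk hK hdiv ι α)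

lemma stdEmb_T : stdEmb hF hm hK hk hdiv ι (sT hK) = sT hF :=
  Subtype.ext (map_Tk ι)

lemma stdEmb_inj : Function.Injective (stdEmb hF hm hK hk hdiv ι) := by
  intro g h e
  apply Subtype.ext
  apply Subtype.ext
  ext i j
  have e1 : Matrix.SpecialLinearGroup.map ι (g : Matrix.SpecialLinearGroup (Fin 4) K) = Matrix.SpecialLinearGroup.map ι (h : Matrix.SpecialLinearGroup (Fin 4) K) := congrArg Subtype.val e
  have e2 := congrArg (fun z : Matrix.SpecialLinearGroup (Fin 4) F => (z : Matrix (Fin 4) (Fin 4) F) i j) e1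
  simp only [Matrix.SpecialLinearGroup.map_apply_coe, RingHom.mapMatrix_apply, Matrix.map_apply] at e2
  exact ι.injective e2

/-- A homomorphism agreeing with the standard embedding on the first coordinate is the standard embedding. -/
theorem rigidity (ψ : ↥(Sz K k) →* ↥(Sz F m)) (hinj : Function.Injective ψ) (h1 : ∀ a b : K, ∃ d : F, ψ (sS hK a b) = sS hF (ι a) d)
    (h2 : ∀ α : Kˣ, ψ (sM hK α) = sM hF (Units.map (ι : K →* F) α)) : ∀ y, ψ y = stdEmb hF hm hK hk hdiv ι y := by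
  classical
  have CF := ctx_of_card (m := m) hF
  have CK := ctx_of_card (m := k) hK
  have h2F : (2 : F) = 0 := CF.two
  have haddF : ∀ x : F, x + x = 0 := add_self CF
  have haddK : ∀ x : K, x + x = 0 := add_self CK
  have hθ0F : (0 : F) ^ θm = 0 := zero_pow (by positivity)
  have hθ0K : (0 : K) ^ θk = 0 := zero_pow (by positivity)
  have hι := iota_theta hK hdiv ι
  choose D hD using h1
  have hmul : ∀ a b c d : K, D (a + c) (b + d + a ^ θk * c) = D a b + D c d + (ι a) ^ θm * ι c := by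
    intro a b c d
    have e := congrArg ψ (sS_mul hK hk a b c d)
    rw [map_mul, hD, hD, hD, sS_mul hF hm] at e
    exact (sS_inj hF hm e).2.symm
  have hconj : ∀ (α : Kˣ) (a b : K), D (α * a) ((α : K) ^ (θk + 1) * b) = (ι (α : K)) ^ (θm + 1) * D a b := by
    intro α a b
    have e := congrArg ψ (sM_conj hK hk α a b)
    rw [map_mul, map_mul, map_inv, h2, hD, hD, sM_conj hF hm] at e
    exact (sS_inj hF hm e).2.symm
  have hD0 : ∀ b : K, D 0 b = ι b := by
    intro b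
    obtain ⟨a, ha⟩ := pow_succ_surj hK hk b
    have e := hmul a 0 a 0
    rw [haddK, add_zero, zero_add, haddF, zero_add, hι, ← map_mul] at e
    have e2 : a ^ θk * a = b := by
      rw [← ha]
      simp [pow_succ]
    rw [e2] at e
    exact e
  have hsplit : ∀ a b : K, D a b = D a 0 + ι b := by
    intro a b
    have e := hmul a 0 0 b
    simp only [add_zero, zero_add, mul_zero, map_zero, hD0] at e
    exact e
  have hgadd : ∀ a c : K, D (a + c) 0 = D a 0 + D c 0 := by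
    intro a c
    have e := hmul a 0 c 0
    rw [hsplit (a + c), add_zero, zero_add, hι, ← map_mul] at e
    exact add_right_cancel e
  have hgmul : ∀ (α : Kˣ) (a : K), D (α * a) 0 = (ι (α : K)) ^ (θm + 1) * D a 0 := by
    intro α a
    have := hconj α a 0
    rwa [mul_zero] at this
  have hg1 : D 1 0 = 0 := by
    by_contra hne
    obtain ⟨t, ht⟩ := exists_pow_ne hK hk
    have ht0 : t ≠ 0 := by
      rintro rfl
      exact ht hθ0K
    have ht1 : t + 1 ≠ 0 := by
      intro h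
      apply ht
      have : t = 1 := by linear_combination h - CK.two
      rw [this, one_pow]
    have e := hgadd t 1
    have e1 := hgmul (Units.mk0 t ht0) 1
    have e2 := hgmul (Units.mk0 (t + 1) ht1) 1
    simp only [Units.val_mk0, mul_one] at e1 e2
    have e' : (ι (t + 1)) ^ (θm + 1) * D 1 0 = ((ι t) ^ (θm + 1) + 1) * D 1 0 := by
      rw [← e2, add_mul, one_mul, ← e1]
      exact e
    have e3 := mul_right_cancel₀ hne e'
    rw [map_add, map_one, pow_succ, CF.add, one_pow] at e3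
    apply ht
    apply ι.injective
    rw [← hι]
    rw [pow_succ] at e3
    linear_combination e3 - (ι t) * h2F
  have hg : ∀ a : K, D a 0 = 0 := by
    intro a
    by_cases ha : a = 0
    · rw [ha, hD0, map_zero]
    · have := hgmul (Units.mk0 a ha) 1
      simpa [hg1] using this
  have hS : ∀ a b : K, ψ (sS hK a b) = sS hF (ι a) (ι b) := by
    intro a b
    rw [hD, hsplit, hg, zero_add]
  have hstabK : ∀ g : ↥(Sz K k), ((g : Matrix.SpecialLinearGroup (Fin 4) K) • suzukiPointInfinity K = suzukiPointInfinity K) → ((ψ g : ↥(Sz F m)) : Matrix.SpecialLinearGroup (Fin 4) F) • ∞' = ∞' := by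
    intro g hg
    obtain ⟨a, b, α, rfl⟩ := stab_cases hK hk g hg
    rw [map_mul, hS, h2, act_mul hF, sM_inf, sS_inf]
  -- the image of the involution
  obtain ⟨α₀, hα₀⟩ := exists_unit_ne_one hK hk
  set γ₀ : Fˣ := Units.map (ι : K →* F) α₀ with hγ₀
  have hγ₀1 : γ₀ ≠ 1 := by
    intro e
    apply hα₀
    apply Units.ext
    apply ι.injective
    have : ι (α₀ : K) = 1 := congrArg Units.val e
    simpa using this
  have hγ₀' : γ₀⁻¹ ≠ 1 := fun e => hγ₀1 (inv_eq_one.1 e)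
  set t' := ψ (sT hK) with ht'
  have hrel : t' * sM hF γ₀ = sM hF γ₀⁻¹ * t' := by
    have e := congrArg ψ (sT_M hK hk α₀)
    rw [map_mul, map_mul, h2, h2, map_inv] at e
    exact e
  have hpts : ∀ p : Projectivization F (Fin 4 → F), p ∈ suzukiOvoid F m → ((sM hF γ₀ : ↥(Sz F m)) : Matrix.SpecialLinearGroup (Fin 4) F) • p = p →
      ((t' : ↥(Sz F m)) : Matrix.SpecialLinearGroup (Fin 4) F) • p = ∞' ∨ ((t' : ↥(Sz F m)) : Matrix.SpecialLinearGroup (Fin 4) F) • p = P θm (0 : F) 0 := by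
    intro p hp hfix
    have e1 : ((sM hF γ₀⁻¹ : ↥(Sz F m)) : Matrix.SpecialLinearGroup (Fin 4) F) • (((t' : ↥(Sz F m)) : Matrix.SpecialLinearGroup (Fin 4) F) • p) = ((t' : ↥(Sz F m)) : Matrix.SpecialLinearGroup (Fin 4) F) • p := by
      rw [← act_mul hF, ← hrel, act_mul hF, hfix]
    rcases ovoid_cases (smul_mem_O t'.2 hp) with h | ⟨x, y, h⟩
    · exact Or.inl h
    · right
      rw [h] at e1 ⊢
      obtain ⟨hx, hy⟩ := fix_M hF hm hγ₀' e1
      rw [hx, hy]
  have hfix0 : ((sM hF γ₀ : ↥(Sz F m)) : Matrix.SpecialLinearGroup (Fin 4) F) • P θm (0 : F) 0 = P θm (0 : F) 0 := by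
    rw [sM_P]
    simp
  have ht1 : ((t' : ↥(Sz F m)) : Matrix.SpecialLinearGroup (Fin 4) F) • ∞' = P θm (0 : F) 0 := by
    rcases hpts ∞' inf_mem (sM_inf hF γ₀) with h | h
    · exfalso
      -- `t'` fixes both points, so it lies in the torus
      have h0 : ((t' : ↥(Sz F m)) : Matrix.SpecialLinearGroup (Fin 4) F) • P θm (0 : F) 0 = P θm (0 : F) 0 := by
        rcases hpts _ (P_mem _ _) hfix0 with h3 | h3
        · exfalso
          have h' : ((t' : ↥(Sz F m)) : Matrix.SpecialLinearGroup (Fin 4) F) • P θm (0 : F) 0 = ((t' : ↥(Sz F m)) : Matrix.SpecialLinearGroup (Fin 4) F) • ∞' := h3.trans h.symm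
          exact P_ne_inf _ _ (smul_left_cancel _ h')
        · exact h3
      obtain ⟨β, hβ⟩ := two_cases hF hm t' h h0
      rw [hβ, sM_mul hF hm, sM_mul hF hm] at hrel
      have e := sM_eq_S hF hm (α := (γ₀ * γ₀)) (c := 0) (d := 0) (by
        rw [sS_zero hF hm]
        have e2 : β * γ₀ = γ₀⁻¹ * β := sM_inj hF hm hrel
        have e3 : γ₀ * γ₀ = 1 := by
          have e4 : γ₀ = γ₀⁻¹ := by
            have : β * γ₀ = β * γ₀⁻¹ := by rw [e2, mul_comm]
            exact mul_left_cancel this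
          calc γ₀ * γ₀ = γ₀ * γ₀⁻¹ := by rw [← e4]
            _ = 1 := mul_inv_cancel γ₀
        rw [e3, sM_one hF hm])
      exact hγ₀1 (unit_sq_eq_one hF hm e)
    · exact h
  have ht2 : ((t' : ↥(Sz F m)) : Matrix.SpecialLinearGroup (Fin 4) F) • P θm (0 : F) 0 = ∞' := by
    rcases hpts _ (P_mem _ _) hfix0 with h | h
    · exact h
    · exfalso
      have h' : ((t' : ↥(Sz F m)) : Matrix.SpecialLinearGroup (Fin 4) F) • P θm (0 : F) 0 = ((t' : ↥(Sz F m)) : Matrix.SpecialLinearGroup (Fin 4) F) • ∞' := h.trans ht1.symm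
      exact P_ne_inf _ _ (smul_left_cancel _ h')
  obtain ⟨γ, hγ'⟩ := two_cases hF hm (sT hF * t') (by rw [act_mul hF, ht1, sT_P0]) (by rw [act_mul hF, ht2, sT_inf])
  have ht3 : t' = sT hF * sM hF γ := by
    rw [← hγ', ← mul_assoc, sT_sq hF hm, one_mul]
  -- the relation in the small group
  set g := sT hK * sS hK (1 : K) 0 * sT hK with hg'
  have hfoK : fo θk (1 : K) 0 = 1 := by
    simp [fo, hθ0K]
  have hgInf : ((g : ↥(Sz K k)) : Matrix.SpecialLinearGroup (Fin 4) K) • suzukiPointInfinity K = P θk (0 : K) 1 := by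
    have h1 : ((sS hK (1 : K) 0 : ↥(Sz K k)) : Matrix.SpecialLinearGroup (Fin 4) K) • P θk (0 : K) 0 = P θk (1 : K) 0 := by
      rw [sS_P]
      simp
    rw [hg', act_mul hK, act_mul hK, sT_inf, h1, sT_P hK (by rw [hfoK]; exact one_ne_zero)]
    simp [hfoK]
  set b₁ := sS hK (0 : K) 1 with hb₁
  have hb₁P : ((b₁ : ↥(Sz K k)) : Matrix.SpecialLinearGroup (Fin 4) K) • P θk (0 : K) 0 = P θk (0 : K) 1 := by
    rw [hb₁, sS_P]
    simp
  set b₂ := sT hK * b₁⁻¹ * g with hb₂
  have hb₂Inf : ((b₂ : ↥(Sz K k)) : Matrix.SpecialLinearGroup (Fin 4) K) • suzukiPointInfinity K = suzukiPointInfinity K := by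
    have e : ((b₁⁻¹ : ↥(Sz K k)) : Matrix.SpecialLinearGroup (Fin 4) K) • P θk (0 : K) 1 = P θk (0 : K) 0 := by
      rw [← hb₁P, ← act_mul hK, inv_mul_cancel]
      simp
    rw [hb₂, act_mul hK, act_mul hK, hgInf, e, sT_P0]
  have hgeq : g = b₁ * sT hK * b₂ := by
    have : b₁ * sT hK * (sT hK * b₁⁻¹ * g) = b₁ * (sT hK * sT hK) * b₁⁻¹ * g := by group
    rw [hb₂, this, sT_sq hK hk]
    group
  have hψg1 : ψ g = sS hF (0 : F) 1 * t' * ψ b₂ := by
    conv_lhs => rw [hgeq]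
    rw [map_mul, map_mul, hb₁, hS, map_zero, map_one]
  have hψg2 : ψ g = t' * sS hF (1 : F) 0 * t' := by
    rw [hg', map_mul, map_mul, hS, map_zero, map_one]
  have hγne : (γ : F) ≠ 0 := γ.ne_zero
  have hfoγ : fo θm (γ : F) 0 = (γ : F) ^ (θm + 2) := by
    simp [fo, hθ0F]
  have hP01 : ((sS hF (0 : F) 1 : ↥(Sz F m)) : Matrix.SpecialLinearGroup (Fin 4) F) • P θm (0 : F) 0 = P θm (0 : F) 1 := by
    rw [sS_P]
    simp
  have e1 : ((ψ g : ↥(Sz F m)) : Matrix.SpecialLinearGroup (Fin 4) F) • ∞' = P θm (0 : F) 1 := by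
    rw [hψg1, act_mul hF, act_mul hF, hstabK b₂ hb₂Inf, ht1, hP01]
  have e2 : ((ψ g : ↥(Sz F m)) : Matrix.SpecialLinearGroup (Fin 4) F) • ∞' = P θm (0 : F) ((γ : F) / (γ : F) ^ (θm + 2)) := by
    rw [hψg2, act_mul hF, act_mul hF, ht1, sS_P, ht3, act_mul hF, sM_P, sT_P]
    · simp only [zero_add, mul_zero, add_zero, mul_one, hθ0F, hfoγ, zero_div]
    · simp only [zero_add, mul_zero, add_zero, mul_one, hθ0F, hfoγ]
      exact pow_ne_zero _ hγne
  rw [e1] at e2
  have e3 := (P_inj e2).2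
  have hγ1 : γ = 1 := by
    apply Units.ext
    have e4 : (γ : F) ^ (θm + 1) = 1 := by
      have h5 : (γ : F) ^ (θm + 2) = (γ : F) := by
        field_simp at e3
        exact e3.symm ▸ rfl
      rw [pow_succ] at h5
      exact mul_right_cancel₀ hγne (by rw [h5, one_mul])
    apply pow_inj hF hm
    rw [e4, Units.val_one, one_pow]
  have ht4 : ψ (sT hK) = sT hF := by
    rw [← ht', ht3, hγ1, sM_one hF hm, mul_one]
  have hfin : ∀ y : ↥(Sz K k), ((y : Matrix.SpecialLinearGroup (Fin 4) K) • suzukiPointInfinity K = suzukiPointInfinity K) → ψ y = stdEmb hF hm hK hk hdiv ι y := by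
    intro y hy
    obtain ⟨a, b, α, rfl⟩ := stab_cases hK hk y hy
    rw [map_mul, map_mul, hS, h2, stdEmb_S, stdEmb_M]
  intro y
  rcases bruhat_cases hK hk y with h | ⟨x', y', b, hb, rfl⟩
  · exact hfin y h
  · rw [map_mul, map_mul, map_mul, map_mul, hS, ht4, hfin b hb, stdEmb_S, stdEmb_T]

omit hF hm hK hk hdiv in
omit [Fintype F] in
/-- Two embeddings of a finite field have the same image. -/
lemma exists_ring_factor (σ₀ ι₀ : K →+* F) : ∃ ρ : K ≃+* K, ∀ a, ι₀ (ρ a) = σ₀ a := by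
  classical
  set s := Fintype.card K with hs
  have hs1 : 1 < s := Fintype.one_lt_card
  set p : Polynomial F := Polynomial.X ^ s - Polynomial.X with hp
  have hp0 : p ≠ 0 := FiniteField.X_pow_card_sub_X_ne_zero F hs1
  have hroot : ∀ (τ : K →+* F) (b : K), τ b ∈ p.roots.toFinset := by
    intro τ b
    rw [Multiset.mem_toFinset, Polynomial.mem_roots hp0, Polynomial.IsRoot.def, hp]
    simp only [Polynomial.eval_sub, Polynomial.eval_pow, Polynomial.eval_X]
    rw [← map_pow, hs, FiniteField.pow_card, sub_self]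
  have hcardle : p.roots.toFinset.card ≤ s := by
    calc p.roots.toFinset.card ≤ Multiset.card p.roots := Multiset.toFinset_card_le _
      _ ≤ p.natDegree := Polynomial.card_roots' p
      _ = s := FiniteField.X_pow_card_sub_X_natDegree_eq F hs1
  have himg : (Finset.univ.image ι₀) = p.roots.toFinset := by
    apply Finset.eq_of_subset_of_card_le
    · intro y hy
      obtain ⟨b, -, rfl⟩ := Finset.mem_image.1 hy
      exact hroot ι₀ b
    · rw [Finset.card_image_of_injective _ ι₀.injective, Finset.card_univ]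
      exact hcardle
  have hex : ∀ a, ∃ b, ι₀ b = σ₀ a := by
    intro a
    have h1 := hroot σ₀ a
    rw [← himg] at h1
    obtain ⟨b, -, hb⟩ := Finset.mem_image.1 h1
    exact ⟨b, hb⟩
  choose ρ₀ hρ₀ using hex
  let ρ₁ : K →+* K :=
    { toFun := ρ₀
      map_one' := ι₀.injective (by rw [hρ₀, map_one, map_one])
      map_zero' := ι₀.injective (by rw [hρ₀, map_zero, map_zero])
      map_add' := fun a b => ι₀.injective (by rw [hρ₀, map_add, map_add, hρ₀, hρ₀])
      map_mul' := fun a b => ι₀.injective (by rw [hρ₀, map_mul, map_mul, hρ₀, hρ₀]) }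
  have hbij : Function.Bijective ρ₁ := by
    have hi : Function.Injective ρ₁ := ρ₁.injective
    exact ⟨hi, Finite.injective_iff_surjective.1 hi⟩
  exact ⟨RingEquiv.ofBijective ρ₁ hbij, fun a => hρ₀ a⟩

/-- An embedding is conjugate to the standard one, up to a field automorphism. -/
theorem conj_standard (ψ : ↥(Sz K k) →* ↥(Sz F m)) (hinj : Function.Injective ψ) :
    ∃ (g : ↥(Sz F m)) (τ : K ≃+* K), ∀ y, ψ (fA hK hk τ y) = g * stdEmb hF hm hK hk hdiv ι y * g⁻¹ := by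
  classical
  haveI : Finite ↥(Sz F m) := finite_Sz
  haveI : Fact (Nat.Prime 2) := ⟨Nat.prime_two⟩
  have CF := ctx_of_card (m := m) hF
  have CK := ctx_of_card (m := k) hK
  have haddF : ∀ x : F, x + x = 0 := add_self CF
  have haddK : ∀ x : K, x + x = 0 := add_self CK
  have hθ0F : (0 : F) ^ θm = 0 := zero_pow (by positivity)
  have hθ0K : (0 : K) ^ θk = 0 := zero_pow (by positivity)
  -- Step a: into `Q`
  have hQ : IsPGroup 2 ↥(Usub hK hk) := IsPGroup.of_card (n := (2 * k + 1) * 2) (by rw [card_U, pow_mul])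
  have hP' := hQ.map ψ
  obtain ⟨Syl, hSyl⟩ := hP'.exists_le_sylow
  obtain ⟨x, hx⟩ := MulAction.exists_smul_eq ↥(Sz F m) (uSylow hF hm) Syl
  have hstep : ∀ a b : K, x⁻¹ * ψ (sS hK a b) * x ∈ Usub hF hm := by
    intro a b
    have h1 : ψ (sS hK a b) ∈ (Syl : Subgroup ↥(Sz F m)) := hSyl ⟨sS hK a b, sS_mem_Q hK hk a b, rfl⟩
    rw [← hx, Sylow.coe_subgroup_smul, Subgroup.mem_pointwise_smul_iff_inv_smul_mem, uSylow_coe] at h1
    simpa [MulAut.conj_apply] using h1
  set ψ₁ : ↥(Sz K k) →* ↥(Sz F m) := (MulAut.conj x⁻¹).toMonoidHom.comp ψ with hψ₁d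
  have hψ₁ : ∀ y, ψ₁ y = x⁻¹ * ψ y * x := by
    intro y
    simp [hψ₁d, MulAut.conj_apply]
  have hψ₁inj : Function.Injective ψ₁ := (MulAut.conj x⁻¹).injective.comp hinj
  -- Step b: the torus
  obtain ⟨α₀, hα₀⟩ := exists_unit_ne_one hK hk
  set t := ψ₁ (sM hK α₀) with ht
  have hkS1 : ∀ {a b : K}, (a ≠ 0 ∨ b ≠ 0) → ∀ {a' b' : F}, ψ₁ (sS hK a b) = sS hF a' b' → (a' ≠ 0 ∨ b' ≠ 0) := by
    intro a b hab a' b' e
    by_contra hcon
    push Not at hcon
    rw [hcon.1, hcon.2, sS_zero hF hm] at e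
    exact sS_ne_one hK hk hab (hψ₁inj (by rw [e, map_one]))
  have htinf : t • (ptInf : suzukiOvoid F m) = ptInf := by
    have h1' : ψ₁ (sS hK (↑α₀ * 1) ((α₀ : K) ^ (θk + 1) * 0)) ∈ Usub hF hm := by
      rw [hψ₁]; exact hstep _ _
    have h2' : ψ₁ (sS hK 1 0) ∈ Usub hF hm := by
      rw [hψ₁]; exact hstep _ _
    obtain ⟨a', b', e'⟩ := (mem_Q hF hm _).1 h1'
    obtain ⟨a, b, e⟩ := (mem_Q hF hm _).1 h2'
    have hab' : a' ≠ 0 ∨ b' ≠ 0 := hkS1 (Or.inl (by simp)) e'
    have hrel : sS hF a' b' * t = t * sS hF a b := by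
      rw [← e', ← e, ← sM_conj hK hk, ht, ← map_mul, ← map_mul]
      congr 1
      group
    apply S_unique_fix hF hm hab'
    rw [← mul_smul, hrel, mul_smul, S_fix_inf hF hm]
  obtain ⟨a, b, β, hab⟩ := stab_cases hF hm t (congrArg Subtype.val htinf)
  have hβ : β ≠ 1 := by
    rintro rfl
    rw [sM_one hF hm, mul_one] at hab
    have h1 : orderOf t = orderOf (sM hK α₀) := orderOf_injective ψ₁ hψ₁inj _
    have h2 := order_M hK hk α₀
    obtain ⟨j, hj⟩ := order_S hF hm a b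
    rw [← h1, hab, hj] at h2
    rcases j with _ | j
    · have h3 : sS hF a b = 1 := by
        rw [← orderOf_eq_one_iff, hj]
        rfl
      rw [h3] at hab
      exact sM_ne_one hK hk hα₀ (hψ₁inj (by rw [← ht, hab, map_one]))
    · rw [pow_succ] at h2
      exact (Nat.not_even_iff_odd.2 h2) (even_two.mul_left _)
  obtain ⟨u, v, huv⟩ := SM_fixed hF hm a b hβ
  set w := sS hF u v with hw
  have hfixt : ((t : ↥(Sz F m)) : Matrix.SpecialLinearGroup (Fin 4) F) • P θm u v = P θm u v := by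
    rw [hab]
    exact huv
  have hw0 : ((w : ↥(Sz F m)) : Matrix.SpecialLinearGroup (Fin 4) F) • P θm (0 : F) 0 = P θm u v := by
    rw [hw, sS_P]
    simp
  have hw1 : ((w⁻¹ : ↥(Sz F m)) : Matrix.SpecialLinearGroup (Fin 4) F) • P θm u v = P θm (0 : F) 0 := by
    rw [← hw0, ← act_mul hF, inv_mul_cancel]
    simp
  have hwinf : ((w : ↥(Sz F m)) : Matrix.SpecialLinearGroup (Fin 4) F) • ∞' = ∞' := sS_inf hF u v
  have hwinf' : ((w⁻¹ : ↥(Sz F m)) : Matrix.SpecialLinearGroup (Fin 4) F) • ∞' = ∞' := by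
    conv_lhs => rw [← hwinf]
    rw [← act_mul hF, inv_mul_cancel]
    simp
  have htinf' : ((t : ↥(Sz F m)) : Matrix.SpecialLinearGroup (Fin 4) F) • ∞' = ∞' := congrArg Subtype.val htinf
  obtain ⟨γ, hγ⟩ := two_cases hF hm (w⁻¹ * t * w)
    (by rw [act_mul hF, act_mul hF, hwinf, htinf', hwinf'])
    (by rw [act_mul hF, act_mul hF, hw0, hfixt, hw1])
  set ψ₂ : ↥(Sz K k) →* ↥(Sz F m) := (MulAut.conj w⁻¹).toMonoidHom.comp ψ₁ with hψ₂d
  have hψ₂ : ∀ y, ψ₂ y = w⁻¹ * ψ₁ y * w := by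
    intro y
    simp [hψ₂d, MulAut.conj_apply]
  have hψ₂inj : Function.Injective ψ₂ := (MulAut.conj w⁻¹).injective.comp hψ₁inj
  have hwQ : w ∈ Usub hF hm := sS_mem_Q hF hm u v
  have hQ2 : ∀ a b : K, ∃ a' b' : F, ψ₂ (sS hK a b) = sS hF a' b' := by
    intro a b
    apply (mem_Q hF hm _).1
    rw [hψ₂, hψ₁]
    exact Subgroup.mul_mem _ (Subgroup.mul_mem _ (inv_mem hwQ) (hstep a b)) hwQ
  have hγ' : ψ₂ (sM hK α₀) = sM hF γ := by
    rw [hψ₂, ← ht, hγ]
  have hγ1 : γ ≠ 1 := by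
    rintro rfl
    rw [sM_one hF hm] at hγ'
    exact sM_ne_one hK hk hα₀ (hψ₂inj (by rw [hγ', map_one]))
  have hT : ∀ α : Kˣ, ∃ β : Fˣ, ψ₂ (sM hK α) = sM hF β := by
    intro α
    have hcomm : ψ₂ (sM hK α) * sM hF γ = sM hF γ * ψ₂ (sM hK α) := by
      rw [← hγ', ← map_mul, ← map_mul, sM_mul hK hk, sM_mul hK hk, mul_comm]
    have h1 := two_fixed_comm hF hm (sM_ne_one hF hm hγ1) (ptInf_ne hF hm 0 0) (M_fix_inf hF hm γ) (M_fix_zero hF hm γ) hcomm
    exact two_cases hF hm _ (congrArg Subtype.val h1.1) (congrArg Subtype.val h1.2)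
  choose f hf using hT
  choose A B hAB using hQ2
  have hmulA : ∀ a b c d : K, A (a + c) (b + d + a ^ θk * c) = A a b + A c d := by
    intro a b c d
    have e := congrArg ψ₂ (sS_mul hK hk a b c d)
    rw [map_mul, hAB, hAB, hAB, sS_mul hF hm] at e
    exact (sS_inj hF hm e).1.symm
  have hconjA : ∀ (α : Kˣ) (a b : K), A (α * a) ((α : K) ^ (θk + 1) * b) = (f α : F) * A a b := by
    intro α a b
    have e := congrArg ψ₂ (sM_conj hK hk α a b)
    rw [map_mul, map_mul, map_inv, hf, hAB, hAB, sM_conj hF hm] at e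
    exact (sS_inj hF hm e).1.symm
  have hA0 : ∀ b : K, A 0 b = 0 := by
    intro b
    obtain ⟨a, ha⟩ := pow_succ_surj hK hk b
    have e := hmulA a 0 a 0
    rw [haddK, add_zero, haddF] at e
    have e2 : a ^ θk * a = b := by
      rw [← ha]
      simp [pow_succ]
    rw [zero_add, e2] at e
    exact e
  have hAb : ∀ a b : K, A a b = A a 0 := by
    intro a b
    have := hmulA a 0 0 b
    simp only [add_zero, zero_add, mul_zero, hA0] at this
    exact this
  have hAadd : ∀ a c : K, A (a + c) 0 = A a 0 + A c 0 := by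
    intro a c
    have := hmulA a 0 c 0
    rw [hAb (a + c)] at this
    exact this
  have hAmul : ∀ (α : Kˣ) (a : K), A (α * a) 0 = (f α : F) * A a 0 := by
    intro α a
    have := hconjA α a 0
    rwa [mul_zero] at this
  have hc : A 1 0 ≠ 0 := by
    intro h0
    have e := hAB 1 0
    rw [h0] at e
    have e2 : ψ₂ (sS hK 1 0 * sS hK 1 0) = 1 := by
      rw [map_mul, e, sS_mul hF hm, haddF, haddF, hθ0F, zero_mul, add_zero, sS_zero hF hm]
    have e3 : sS hK (1 : K) 0 * sS hK (1 : K) 0 = 1 := hψ₂inj (by rw [e2, map_one])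
    rw [sS_mul hK hk, haddK] at e3
    apply sS_ne_one hK hk (a := (0 : K)) (b := 1) (Or.inr one_ne_zero)
    rw [← e3]
    simp
  set c : F := A 1 0 with hc'
  let σ₀ : K →+* F :=
    { toFun := fun a => c⁻¹ * A a 0
      map_one' := inv_mul_cancel₀ hc
      map_zero' := by simp [hA0]
      map_add' := by
        intro a b
        simp only [hAadd]
        ring
      map_mul' := by
        intro a b
        by_cases ha : a = 0
        · subst ha
          simp [hA0]
        · have e1 := hAmul (Units.mk0 a ha) b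
          have e2 := hAmul (Units.mk0 a ha) 1
          simp only [Units.val_mk0, mul_one] at e1 e2
          rw [e1, e2, ← hc']
          field_simp }
  have hσ₀ : ∀ a, σ₀ a = c⁻¹ * A a 0 := fun a => rfl
  have hσf : ∀ α : Kˣ, (f α : F) = σ₀ (α : K) := by
    intro α
    rw [hσ₀]
    have e := hAmul α 1
    rw [mul_one, ← hc'] at e
    rw [e]
    field_simp
  obtain ⟨ρ, hρ⟩ := exists_ring_factor σ₀ ι
  set τ := ρ.symm with hτ
  have hρτ : ∀ a, ι a = σ₀ (τ a) := by
    intro a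
    rw [← hρ, hτ]
    simp
  set c₀ : Fˣ := Units.mk0 c hc with hc₀
  have hc₀v : (c₀ : F) = c := rfl
  set χ : ↥(Sz K k) →* ↥(Sz F m) := (MulAut.conj (sM hF c₀⁻¹)).toMonoidHom.comp (ψ₂.comp (fA hK hk τ).toMonoidHom) with hχd
  have hχ : ∀ y, χ y = sM hF c₀⁻¹ * ψ₂ (fA hK hk τ y) * (sM hF c₀⁻¹)⁻¹ := by
    intro y
    simp [hχd, MulAut.conj_apply]
  have hχinj : Function.Injective χ := (MulAut.conj (sM hF c₀⁻¹)).injective.comp (hψ₂inj.comp (fA hK hk τ).injective)
  have hχS : ∀ a b : K, ∃ d : F, χ (sS hK a b) = sS hF (ι a) d := by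
    intro a b
    refine ⟨((c₀⁻¹ : Fˣ) : F) ^ (θm + 1) * B (τ a) (τ b), ?_⟩
    rw [hχ, fA_S hK hk, hAB, sM_conj hF hm]
    congr 1
    rw [hAb, hρτ a, hσ₀, Units.val_inv_eq_inv_val, hc₀v, hτ]
  have hχM : ∀ α : Kˣ, χ (sM hK α) = sM hF (Units.map (ι : K →* F) α) := by
    intro α
    rw [hχ, fA_M hK hk, hf, sM_inv hF hm, inv_inv, sM_mul hF hm, sM_mul hF hm]
    congr 1
    rw [mul_comm c₀⁻¹, mul_assoc, inv_mul_cancel, mul_one]
    apply Units.ext
    rw [hσf]
    simp only [Units.coe_map]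
    show σ₀ (τ (α : K)) = ι (α : K)
    rw [hρτ]
  have hrig := rigidity hF hm hK hk hdiv ι χ hχinj hχS hχM
  refine ⟨x * w * sM hF c₀, τ, fun y => ?_⟩
  rw [← hrig, hχ, hψ₂, hψ₁, ← sM_inv hF hm]
  group

end

section

variable {F K : Type*} [Field F] [Fintype F] [Field K] [Fintype K] {m k : ℕ}

/-- There is an embedding of the small field. -/
lemma exists_embed (hF : Fintype.card F = 2 ^ (2 * m + 1)) (hK : Fintype.card K = 2 ^ (2 * k + 1)) (hdiv : 2 * k + 1 ∣ 2 * m + 1) : Nonempty (K →+* F) := by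
  haveI : Fact (Nat.Prime 2) := ⟨Nat.prime_two⟩
  have CF := ctx_of_card (m := m) hF
  have CK := ctx_of_card (m := k) hK
  haveI : CharP F 2 := CharTwo.of_one_ne_zero_of_two_eq_zero one_ne_zero CF.two
  haveI : CharP K 2 := CharTwo.of_one_ne_zero_of_two_eq_zero one_ne_zero CK.two
  letI : Algebra (ZMod 2) F := ZMod.algebra F 2
  letI : Algebra (ZMod 2) K := ZMod.algebra K 2
  have h1 := Module.card_eq_pow_finrank (K := ZMod 2) (V := F)
  rw [hF, ZMod.card] at h1
  have h2 := Module.card_eq_pow_finrank (K := ZMod 2) (V := K)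
  rw [hK, ZMod.card] at h2
  have h3 := Nat.pow_right_injective (le_refl 2) h1
  have h4 := Nat.pow_right_injective (le_refl 2) h2
  have h5 : Module.finrank (ZMod 2) K ∣ Module.finrank (ZMod 2) F := by
    rw [← h3, ← h4]
    exact hdiv
  obtain ⟨f⟩ := FiniteField.nonempty_algHom_of_finrank_dvd (F := ZMod 2) (K := K) (L := F) h5
  exact ⟨f.toRingHom⟩

/-- Subfield subgroups exist and are conjugate. -/
theorem subfield_main (hF : Fintype.card F = 2 ^ (2 * m + 1)) (hm : 1 ≤ m) (hK : Fintype.card K = 2 ^ (2 * k + 1)) (hk : 1 ≤ k) (hdiv : 2 * k + 1 ∣ 2 * m + 1) :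
    (∃ S : Subgroup ↥(Cfsg.Sz F m), Nonempty (↥S ≃* ↥(Cfsg.Sz K k))) ∧
    ∀ S₁ S₂ : Subgroup ↥(Cfsg.Sz F m), Nonempty (↥S₁ ≃* ↥(Cfsg.Sz K k)) → Nonempty (↥S₂ ≃* ↥(Cfsg.Sz K k)) →
      ∃ g : ↥(Cfsg.Sz F m), S₂ = S₁.map (MulAut.conj g).toMonoidHom := by
  classical
  obtain ⟨ι⟩ := exists_embed hF hK hdiv
  set φ := stdEmb hF hm hK hk hdiv ι with hφ
  have hφinj : Function.Injective φ := stdEmb_inj hF hm hK hk hdiv ι
  set S₀ : Subgroup ↥(Sz F m) := φ.range with hS₀
  refine ⟨⟨S₀, ⟨(MonoidHom.ofInjective hφinj).symm⟩⟩, ?_⟩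
  have key : ∀ S : Subgroup ↥(Cfsg.Sz F m), Nonempty (↥S ≃* ↥(Cfsg.Sz K k)) → ∃ g : ↥(Sz F m), S = S₀.map (MulAut.conj g).toMonoidHom := by
    rintro S ⟨e⟩
    set ψ : ↥(Sz K k) →* ↥(Sz F m) := S.subtype.comp e.symm.toMonoidHom with hψ
    have hψinj : Function.Injective ψ := S.subtype_injective.comp e.symm.injective
    obtain ⟨g, τ, h⟩ := conj_standard hF hm hK hk hdiv ι ψ hψinj
    refine ⟨g, ?_⟩
    ext z
    constructor
    · intro hz
      obtain ⟨y, hy⟩ : ∃ y, e.symm y = ⟨z, hz⟩ := e.symm.surjective _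
      obtain ⟨y', rfl⟩ := (fA hK hk τ).surjective y
      have h1 : ψ (fA hK hk τ y') = z := by
        simp only [hψ, MonoidHom.coe_comp, Function.comp_apply, MulEquiv.coe_toMonoidHom, hy]
        rfl
      rw [h] at h1
      exact ⟨φ y', ⟨y', rfl⟩, by simpa [MulAut.conj_apply] using h1⟩
    · rintro ⟨_, ⟨y, rfl⟩, rfl⟩
      have h1 := h y
      have h2 : ψ (fA hK hk τ y) ∈ S := by simp [hψ]
      rw [h1] at h2
      simpa [MulAut.conj_apply] using h2
  rintro S₁ S₂ h₁ h₂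
  obtain ⟨g₁, rfl⟩ := key S₁ h₁
  obtain ⟨g₂, rfl⟩ := key S₂ h₂
  refine ⟨g₂ * g₁⁻¹, ?_⟩
  rw [Subgroup.map_map]
  congr 1
  apply MonoidHom.ext
  intro y
  simp only [MonoidHom.comp_apply, MulEquiv.coe_toMonoidHom, MulAut.conj_apply]
  group

end

end CfsgLib.Sz
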