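/-
Elementary abelian TI-subgroups of the Suzuki groups.
-/
import Cfsg.Agent.Lib.Sz.SolC
import Cfsg.Agent.Lib.Sz.Subfield
import Cfsg.Prelude.Def_Transfer

set_option autoImplicit false

namespace CfsgLib.Sz

open Matrix Cfsg
open scoped Pointwise

section

variable {F : Type*} [Field F] [Fintype F] {m : ℕ}

local notation "θm" => (2 ^ (m + 1) : ℕ)

local notation "∞'" => suzukiPointInfinity F

set_option quotPrecheck false in
local notation "GG" => ↥(Sz F m)

set_option quotPrecheck false in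
local notation "OO" => ↥(suzukiOvoid F m)

variable (hF : Fintype.card F = 2 ^ (2 * m + 1)) (hm : 1 ≤ m)

include hF hm

lemma sS_central_mul (b c : F) : sS hF (0 : F) b * sS hF 0 c = sS hF 0 (b + c) := by
  rw [sS_mul hF hm, add_zero, zero_pow (by positivity), zero_mul, add_zero]

lemma sM_conj_central (α : Fˣ) (b : F) : sM hF α * sS hF (0 : F) b * (sM hF α)⁻¹ = sS hF 0 ((α : F) ^ (θm + 1) * b) := by
  rw [sM_conj hF hm, mul_zero]

lemma central_comm (c d b : F) : sS hF c d * sS hF (0 : F) b = sS hF 0 b * sS hF c d := by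
  rw [sS_mul hF hm, sS_mul hF hm, add_zero, zero_add, mul_zero, add_zero, zero_pow (by positivity), zero_mul, add_zero]
  congr 1
  ring

/-- The necessity of the divisibility. -/
theorem ti_forward (n : ℕ) (hn : 2 ≤ n) (E : Subgroup GG) (hE : Cfsg.IsElementaryAbelian 2 E) (hc : Nat.card E = 2 ^ n)
    (hTI : ∀ x : GG, E ⊓ E.map (MulAut.conj x).toMonoidHom ≠ ⊥ → x ∈ Subgroup.normalizer (E : Set GG)) : n ∣ 2 * m + 1 := by
  classical
  haveI : Finite GG := finite_Sz
  haveI : Fact (Nat.Prime 2) := ⟨Nat.prime_two⟩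
  have C := ctx_of_card (m := m) hF
  have hP : IsPGroup 2 E := by
    intro z
    exact ⟨1, Subtype.ext (by simpa using hE.2 z z.2)⟩
  obtain ⟨P, hPE⟩ := hP.exists_le_sylow
  obtain ⟨x₀, hx₀⟩ := exists_sylow_conj hF hm P
  -- the additive subgroup
  have hform : ∀ y ∈ E, ∃ b : F, y = x₀ * sS hF (0 : F) b * x₀⁻¹ := by
    intro y hy
    obtain ⟨a, b, e⟩ := (mem_Q hF hm _).1 ((hx₀ y).1 (hPE hy))
    have h2 : sS hF a b * sS hF a b = 1 := by
      rw [← e]
      have h3 : y * y = 1 := by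
        rw [← pow_two]
        exact hE.2 y hy
      calc x₀⁻¹ * y * x₀ * (x₀⁻¹ * y * x₀) = x₀⁻¹ * (y * y) * x₀ := by group
        _ = 1 := by rw [h3]; group
    rw [sS_sq hF hm, ← sS_zero hF hm] at h2
    have h3 := (sS_inj hF hm h2).2
    have ha : a = 0 := by
      by_contra ha
      exact pow_ne_zero _ ha h3
    refine ⟨b, ?_⟩
    rw [← ha, ← e]
    group
  set W : AddSubgroup F :=
    { carrier := {b | x₀ * sS hF (0 : F) b * x₀⁻¹ ∈ E}
      add_mem' := by
        intro b c hb hc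
        have := E.mul_mem hb hc
        have e : x₀ * sS hF (0 : F) b * x₀⁻¹ * (x₀ * sS hF 0 c * x₀⁻¹) = x₀ * (sS hF (0 : F) b * sS hF 0 c) * x₀⁻¹ := by group
        rw [e, sS_central_mul hF hm] at this
        exact this
      zero_mem' := by
        show x₀ * sS hF (0 : F) 0 * x₀⁻¹ ∈ E
        rw [sS_zero hF hm]
        simp
      neg_mem' := by
        intro b hb
        have hneg : -b = b := by
          linear_combination -(add_self C b)
        rw [hneg]
        exact hb } with hW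
  have hmemW : ∀ b, b ∈ W ↔ x₀ * sS hF (0 : F) b * x₀⁻¹ ∈ E := fun b => Iff.rfl
  have hcW : Nat.card W = 2 ^ n := by
    rw [← hc]
    refine Nat.card_congr (Equiv.ofBijective (fun b : W => (⟨x₀ * sS hF (0 : F) b * x₀⁻¹, b.2⟩ : E)) ⟨?_, ?_⟩)
    · intro b c h
      have e1 := congrArg Subtype.val h
      simp only at e1
      have e2 := mul_left_cancel (mul_right_cancel e1)
      exact Subtype.ext (sS_inj hF hm e2).2
    · rintro ⟨y, hy⟩
      obtain ⟨b, rfl⟩ := hform y hy
      exact ⟨⟨b, hy⟩, rfl⟩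
  -- a nonzero element
  obtain ⟨w₀, hw₀, hw₀0⟩ : ∃ w₀ ∈ W, w₀ ≠ 0 := by
    by_contra hcon
    push Not at hcon
    have hbot : W = ⊥ := by
      rw [eq_bot_iff]
      intro b hb
      exact hcon b hb
    rw [hbot] at hcW
    simp only [Nat.card_unique] at hcW
    have : (1 : ℕ) < 2 ^ n := Nat.one_lt_two_pow (by omega)
    omega
  -- scaling
  have hscale : ∀ w ∈ W, w ≠ 0 → ∀ v ∈ W, (w₀ / w) * v ∈ W := by
    intro w hw hw0 v hv
    obtain ⟨u₀, hu₀⟩ := pow_succ_surj hF hm (w₀ / w)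
    simp only at hu₀
    have hu0 : u₀ ≠ 0 := by
      rintro rfl
      rw [zero_pow (by positivity)] at hu₀
      exact div_ne_zero hw₀0 hw0 hu₀.symm
    set α : Fˣ := Units.mk0 u₀ hu0 with hα
    have hαv : (α : F) ^ (θm + 1) = w₀ / w := hu₀
    set x : GG := x₀ * sM hF α * x₀⁻¹ with hx
    have hconj : ∀ b : F, x * (x₀ * sS hF (0 : F) b * x₀⁻¹) * x⁻¹ = x₀ * sS hF 0 ((w₀ / w) * b) * x₀⁻¹ := by
      intro b
      rw [← hαv, ← sM_conj_central hF hm, hx]
      group
    have hne : E ⊓ E.map (MulAut.conj x).toMonoidHom ≠ ⊥ := by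
      intro hbot
      have h1 : x₀ * sS hF (0 : F) w₀ * x₀⁻¹ ∈ E ⊓ E.map (MulAut.conj x).toMonoidHom := by
        refine ⟨hw₀, ⟨_, hw, ?_⟩⟩
        have e := hconj w
        rw [div_mul_cancel₀ _ hw0] at e
        exact e
      rw [hbot, Subgroup.mem_bot] at h1
      apply sS_ne_one hF hm (a := (0 : F)) (b := w₀) (Or.inr hw₀0)
      calc sS hF (0 : F) w₀ = x₀⁻¹ * (x₀ * sS hF (0 : F) w₀ * x₀⁻¹) * x₀ := by group
        _ = 1 := by rw [h1]; group
    have hN := hTI x hne
    have h1 := (Subgroup.mem_normalizer_iff.1 hN _).1 hv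
    rw [hconj] at h1
    exact h1
  -- the subfield
  set L : Subfield F :=
    { carrier := {l | w₀ * l ∈ W}
      add_mem' := by
        intro a b ha hb
        show w₀ * (a + b) ∈ W
        rw [mul_add]
        exact W.add_mem ha hb
      zero_mem' := by
        show w₀ * 0 ∈ W
        rw [mul_zero]
        exact W.zero_mem
      neg_mem' := by
        intro a ha
        show w₀ * (-a) ∈ W
        rw [mul_neg]
        exact W.neg_mem ha
      one_mem' := by
        show w₀ * 1 ∈ W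
        rw [mul_one]
        exact hw₀
      mul_mem' := by
        intro a b ha hb
        show w₀ * (a * b) ∈ W
        have ha' : w₀ * a ∈ W := ha
        have hb' : w₀ * b ∈ W := hb
        by_cases h0 : a = 0
        · rw [h0, zero_mul, mul_zero]
          exact W.zero_mem
        · -- `w₀ / (w₀ * a⁻¹) = a`: first show that the inverse is in `L`
          have hinv : w₀ * a⁻¹ ∈ W := by
            have h1 := hscale (w₀ * a) ha' (mul_ne_zero hw₀0 h0) w₀ hw₀
            have e : w₀ / (w₀ * a) * w₀ = w₀ * a⁻¹ := by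
              field_simp
            rwa [e] at h1
          have h2 := hscale (w₀ * a⁻¹) hinv (mul_ne_zero hw₀0 (inv_ne_zero h0)) (w₀ * b) hb'
          have e : w₀ / (w₀ * a⁻¹) * (w₀ * b) = w₀ * (a * b) := by
            field_simp
          rwa [e] at h2
      inv_mem' := by
        intro a ha
        show w₀ * a⁻¹ ∈ W
        have ha' : w₀ * a ∈ W := ha
        by_cases h0 : a = 0
        · rw [h0, _root_.inv_zero, mul_zero]
          exact W.zero_mem
        · have h1 := hscale (w₀ * a) ha' (mul_ne_zero hw₀0 h0) w₀ hw₀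
          have e : w₀ / (w₀ * a) * w₀ = w₀ * a⁻¹ := by
            field_simp
          rwa [e] at h1 } with hL
  have hcL : Nat.card L = 2 ^ n := by
    rw [← hcW]
    refine Nat.card_congr (Equiv.ofBijective (fun l : L => (⟨w₀ * l, l.2⟩ : W)) ⟨?_, ?_⟩)
    · intro a b h
      have e := congrArg Subtype.val h
      simp only at e
      exact Subtype.ext (mul_left_cancel₀ hw₀0 e)
    · rintro ⟨v, hv⟩
      refine ⟨⟨w₀⁻¹ * v, ?_⟩, ?_⟩
      · show w₀ * (w₀⁻¹ * v) ∈ W
        rw [mul_inv_cancel_left₀ hw₀0]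
        exact hv
      · apply Subtype.ext
        simp [mul_inv_cancel_left₀ hw₀0]
  haveI : Fintype L := Fintype.ofFinite _
  have h1 := Module.card_eq_pow_finrank (K := L) (V := F)
  rw [hF, ← Nat.card_eq_fintype_card, hcL, ← pow_mul] at h1
  exact ⟨_, Nat.pow_right_injective (le_refl 2) h1⟩

/-- The sufficiency of the divisibility. -/
theorem ti_backward (n : ℕ) (hn : 2 ≤ n) (hdvd : n ∣ 2 * m + 1) :
    ∃ E : Subgroup GG, Cfsg.IsElementaryAbelian 2 E ∧ Nat.card E = 2 ^ n ∧
      ∀ x : GG, E ⊓ E.map (MulAut.conj x).toMonoidHom ≠ ⊥ → x ∈ Subgroup.normalizer (E : Set GG) := by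
  classical
  haveI : Finite GG := finite_Sz
  have C := ctx_of_card (m := m) hF
  -- `n` is odd
  have hodd : Odd n := Odd.of_dvd_nat ⟨m, rfl⟩ hdvd
  obtain ⟨k, hk⟩ := hodd
  haveI : Fact (Nat.Prime 2) := ⟨Nat.prime_two⟩
  haveI : Finite (GaloisField 2 n) := by
    haveI : Fintype (GaloisField 2 n) := by
      apply Fintype.ofFinite
    infer_instance
  haveI : Fintype (GaloisField 2 n) := Fintype.ofFinite _
  have hK : Fintype.card (GaloisField 2 n) = 2 ^ (2 * k + 1) := by
    rw [← Nat.card_eq_fintype_card, GaloisField.card 2 n (by omega), hk]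
  rw [hk] at hdvd
  obtain ⟨ι⟩ := exists_embed hF hK hdvd
  set E : Subgroup GG :=
    { carrier := {g | ∃ c : GaloisField 2 n, g = sS hF (0 : F) (ι c)}
      mul_mem' := by
        rintro _ _ ⟨c, rfl⟩ ⟨d, rfl⟩
        exact ⟨c + d, by rw [sS_central_mul hF hm, map_add]⟩
      one_mem' := ⟨0, by rw [map_zero, sS_zero hF hm]⟩
      inv_mem' := by
        rintro _ ⟨c, rfl⟩
        refine ⟨c, ?_⟩
        rw [sS_inv' hF hm, zero_pow (by positivity), add_zero] } with hE
  have hmem : ∀ g, g ∈ E ↔ ∃ c : GaloisField 2 n, g = sS hF (0 : F) (ι c) := fun g => Iff.rfl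
  refine ⟨E, ⟨⟨⟨?_⟩⟩, ?_⟩, ?_, ?_⟩
  · rintro ⟨_, c, rfl⟩ ⟨_, d, rfl⟩
    apply Subtype.ext
    show sS hF (0 : F) (ι c) * sS hF 0 (ι d) = sS hF (0 : F) (ι d) * sS hF 0 (ι c)
    rw [sS_central_mul hF hm, sS_central_mul hF hm, add_comm]
  · rintro _ ⟨c, rfl⟩
    rw [pow_two, sS_central_mul hF hm, add_self C, sS_zero hF hm]
  · rw [← GaloisField.card 2 n (by omega)]
    symm
    refine Nat.card_congr (Equiv.ofBijective (fun c : GaloisField 2 n => (⟨sS hF (0 : F) (ι c), c, rfl⟩ : E)) ⟨?_, ?_⟩)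
    · intro c d h
      have e := congrArg Subtype.val h
      simp only at e
      exact ι.injective (sS_inj hF hm e).2
    · rintro ⟨_, c, rfl⟩
      exact ⟨c, rfl⟩
  · intro x hne
    obtain ⟨z, hz, hz1⟩ := Subgroup.ne_bot_iff_exists_ne_one.1 hne |>.elim fun z hz => (⟨z.1, z.2, fun e => hz (Subtype.ext e)⟩ : ∃ z : GG, z ∈ E ⊓ E.map (MulAut.conj x).toMonoidHom ∧ z ≠ 1)
    obtain ⟨⟨c, rfl⟩, ⟨_, ⟨d, rfl⟩, hd⟩⟩ := hz
    have hd' : x * sS hF (0 : F) (ι d) * x⁻¹ = sS hF 0 (ι c) := hd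
    have hc0 : ι c ≠ 0 := by
      intro h0
      rw [h0, sS_zero hF hm] at hz1
      exact hz1 rfl
    have hd0 : ι d ≠ 0 := by
      intro h0
      rw [h0, sS_zero hF hm] at hd'
      apply hz1
      rw [← hd']
      group
    have hxinf : x • (ptInf : OO) = ptInf := by
      apply S_unique_fix hF hm (a := (0 : F)) (b := ι c) (Or.inr hc0)
      rw [← hd', ← mul_smul]
      have e : x * sS hF (0 : F) (ι d) * x⁻¹ * x = x * sS hF (0 : F) (ι d) := by group
      rw [e, mul_smul, S_fix_inf hF hm]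
    obtain ⟨u, v, α, rfl⟩ := stab_cases hF hm x (congrArg Subtype.val hxinf)
    have hact : ∀ b : F, (sS hF u v * sM hF α) * sS hF (0 : F) b * (sS hF u v * sM hF α)⁻¹ = sS hF 0 ((α : F) ^ (θm + 1) * b) := by
      intro b
      have e : (sS hF u v * sM hF α) * sS hF (0 : F) b * (sS hF u v * sM hF α)⁻¹ = sS hF u v * (sM hF α * sS hF (0 : F) b * (sM hF α)⁻¹) * (sS hF u v)⁻¹ := by group
      rw [e, sM_conj_central hF hm, central_comm hF hm]
      group
    rw [hact] at hd'
    have hβ := (sS_inj hF hm hd').2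
    -- the scalar lies in the subfield
    have hβv : (α : F) ^ (θm + 1) = ι (c * d⁻¹) := by
      rw [map_mul, map_inv₀, ← hβ]
      field_simp
    have hαimg : ∀ b : F, (α : F) ^ (θm + 1) * b = ι (c * d⁻¹) * b := by
      intro b
      rw [hβv]
    have hcd : c * d⁻¹ ≠ 0 := by
      apply mul_ne_zero
      · rintro rfl
        exact hc0 (map_zero ι)
      · apply inv_ne_zero
        rintro rfl
        exact hd0 (map_zero ι)
    rw [Subgroup.mem_normalizer_iff]
    intro y
    constructor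
    · rintro ⟨e, rfl⟩
      rw [hact, hαimg]
      exact ⟨c * d⁻¹ * e, by rw [map_mul (ι) (c * d⁻¹) e]⟩
    · intro h
      obtain ⟨e, he⟩ := h
      -- pull back
      have hy : y = (sS hF u v * sM hF α)⁻¹ * sS hF (0 : F) (ι e) * (sS hF u v * sM hF α) := by
        rw [← he]
        group
      refine ⟨(c * d⁻¹)⁻¹ * e, ?_⟩
      have h3 : (sS hF u v * sM hF α) * sS hF (0 : F) (ι ((c * d⁻¹)⁻¹ * e)) * (sS hF u v * sM hF α)⁻¹ = sS hF 0 (ι e) := by
        rw [hact, hαimg, ← map_mul, mul_inv_cancel_left₀ hcd]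
      rw [hy, ← h3]
      group

/-- The criterion for elementary abelian TI-subgroups. -/
theorem ti_main (n : ℕ) (hn : 2 ≤ n) :
    (∃ E : Subgroup GG, Cfsg.IsElementaryAbelian 2 E ∧ Nat.card E = 2 ^ n ∧
      ∀ x : GG, E ⊓ E.map (MulAut.conj x).toMonoidHom ≠ ⊥ → x ∈ Subgroup.normalizer (E : Set GG)) ↔ n ∣ 2 * m + 1 := by
  constructor
  · rintro ⟨E, h1, h2, h3⟩
    exact ti_forward hF hm n hn E h1 h2 h3
  · exact ti_backward hF hm n hn

end

end CfsgLib.Sz
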